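import Mathlib

/-! Ladder PA (S1936): every p'-subgroup abelian of exponent dividing p - 1 implies solvable.
Definitions shared by all rungs. -/

set_option autoImplicit false

namespace Cfsg.Agent.Lib.Helper60.PA

open Subgroup
open scoped commutatorElement

/-- the hypothesis of S1936 -/
def Hyp (p : ℕ) (G : Type*) [Group G] : Prop :=
  ∀ H : Subgroup G, (Nat.card ↥H).Coprime p → IsMulCommutative ↥H ∧ ∀ x ∈ H, x ^ (p - 1) = 1

/-- minimal counterexample -/
structure MC (p : ℕ) (G : Type*) [Group G] : Prop where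
  hyp : Hyp p G
  simple : IsSimpleGroup G
  nonsolv : ¬ Group.IsSolvable G
  proper : ∀ L : Subgroup G, L ≠ ⊤ → Group.IsSolvable ↥L

/-- `H` is maximal among the p'-subgroups of `L` -/
def MaxPIn (p : ℕ) {G : Type*} [Group G] (H L : Subgroup G) : Prop :=
  H ≤ L ∧ (Nat.card ↥H).Coprime p ∧
    ∀ H' : Subgroup G, H ≤ H' → H' ≤ L → (Nat.card ↥H').Coprime p → H' = H

/-- `T` is an `H`-invariant p-subgroup -/
def Inv (p : ℕ) {G : Type*} [Group G] (H T : Subgroup G) : Prop :=
  IsPGroup p ↥T ∧ H ≤ normalizer (T : Set G)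

/-- maximal `H`-invariant p-subgroup -/
def MaxInv (p : ℕ) {G : Type*} [Group G] (H T : Subgroup G) : Prop :=
  Inv p H T ∧ ∀ T' : Subgroup G, Inv p H T' → T ≤ T' → T' = T

/-- structure of a solvable `L` around its maximal p'-subgroup `H`: `O = O_p(L)`, `O H` normal in `L`
of p-power index, and every `H`-invariant p-subgroup of `L` lies in `O`. -/
def StrAt (p : ℕ) {G : Type*} [Group G] (H L : Subgroup G) : Prop :=
  ∃ O : Subgroup G, IsPGroup p ↥O ∧ O ≤ L ∧ L ≤ normalizer (O : Set G) ∧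
    L ≤ normalizer ((O ⊔ H : Subgroup G) : Set G) ∧
    (∀ X : Subgroup G, X ≤ L → IsPGroup p ↥X → H ≤ normalizer (X : Set G) → X ≤ O) ∧
    ∃ k : ℕ, (O ⊔ H).relIndex L = p ^ k

/-- automizers of p-subgroups have a p-group as derived subgroup (element form) -/
def F1 (p : ℕ) (G : Type*) [Group G] : Prop :=
  ∀ T : Subgroup G, IsPGroup p ↥T → ∀ a ∈ normalizer (T : Set G), ∀ b ∈ normalizer (T : Set G),
    (orderOf ⁅a, b⁆).Coprime p → ⁅a, b⁆ ∈ centralizer (T : Set G)

/-- no nontrivial element of `A` is centralised by `N` -/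
def NoFix {G : Type*} [Group G] (A N : Subgroup G) : Prop :=
  ∀ c ∈ A, (∀ g ∈ N, g * c = c * g) → c = 1

theorem Hyp.subgroup {p : ℕ} {G : Type*} [Group G] (h : Hyp p G) (L : Subgroup G) : Hyp p ↥L := by
  intro H hH
  have hc : Nat.card ↥(H.map L.subtype) = Nat.card ↥H :=
    Subgroup.card_map_of_injective L.subtype_injective
  obtain ⟨h1, h2⟩ := h (H.map L.subtype) (by rw [hc]; exact hH)
  refine ⟨⟨⟨fun a b => ?_⟩⟩, fun x hx => ?_⟩
  · have := h1.is_comm.comm ⟨(a : L), Subgroup.mem_map_of_mem _ a.2⟩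
      ⟨(b : L), Subgroup.mem_map_of_mem _ b.2⟩
    have h3 : ((a : L) : G) * ((b : L) : G) = ((b : L) : G) * ((a : L) : G) :=
      congrArg Subtype.val this
    exact Subtype.ext (Subtype.ext h3)
  · have := h2 (x : G) (Subgroup.mem_map_of_mem L.subtype hx)
    exact Subtype.ext (by simpa using this)

end Cfsg.Agent.Lib.Helper60.PA
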