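import Mathlib
import Cfsg.Agent.Lib.Helper60.PA.Defs
import Cfsg.Agent.Lib.Helper12.Card

set_option autoImplicit false

namespace Cfsg.Agent.Lib.Helper60.PA

open Subgroup
open scoped commutatorElement

universe u

theorem cent_of_coprime {p : ℕ} [Fact p.Prime] {G : Type u} [Group G] [Finite G] (hyp : Hyp p G)
    {A : Subgroup G} (hA : (Nat.card ↥A).Coprime p) {g : G} (hg : g ∈ normalizer (A : Set G))
    (hgo : (orderOf g).Coprime p) :
    g ∈ centralizer (A : Set G) ∧ (Nat.card ↥(A ⊔ zpowers g)).Coprime p := by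
  have hz : zpowers g ≤ normalizer (A : Set G) := by rw [zpowers_le]; exact hg
  have h1 := Cfsg.Agent.Lib.Helper12.card_sup_mul_card_inf' (zpowers g) A hz
  have hcop : (Nat.card ↥(A ⊔ zpowers g)).Coprime p := by
    rw [sup_comm]
    have hd : Nat.card ↥(zpowers g ⊔ A) ∣ Nat.card (zpowers g) * Nat.card A := ⟨_, h1.symm⟩
    apply Nat.Coprime.coprime_dvd_left hd
    rw [Nat.card_zpowers]
    exact Nat.Coprime.mul_left hgo hA
  refine ⟨?_, hcop⟩
  obtain ⟨hc, -⟩ := hyp _ hcop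
  rw [mem_centralizer_iff]
  intro a ha
  have := hc.is_comm.comm ⟨a, (le_sup_left : A ≤ A ⊔ zpowers g) ha⟩
    ⟨g, (le_sup_right : zpowers g ≤ A ⊔ zpowers g) (mem_zpowers g)⟩
  exact congrArg Subtype.val this

end Cfsg.Agent.Lib.Helper60.PA
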