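import Mathlib
import Cfsg.Agent.Lib.Helper60.PA.Defs
import Cfsg.Agent.Lib.Helper3.AbelianSylowSplit

/-! Ladder PA, rung CENT. -/

set_option autoImplicit false

namespace Cfsg.Agent.Lib.Helper60.PA

open Subgroup
open scoped commutatorElement

universe u

theorem cent_le_normalizer {G : Type*} [Group G] {H L : Subgroup G}
    (h : ∀ l ∈ L, ∀ x ∈ H, l * x * l⁻¹ ∈ H) : L ≤ normalizer (H : Set G) := by
  intro l hl
  rw [mem_normalizer_iff]
  intro x
  refine ⟨h l hl x, fun hx => ?_⟩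
  have := h l⁻¹ (L.inv_mem hl) _ hx
  simpa [mul_assoc] using this

/-- some `p`-power power of `x` has order prime to `p`. -/
theorem cent_exists_pow {p : ℕ} [hp : Fact p.Prime] {G : Type*} [Group G] [Finite G] (x : G) :
    ∃ k : ℕ, (orderOf (x ^ p ^ k)).Coprime p := by
  refine ⟨(orderOf x).factorization p, ?_⟩
  rw [orderOf_pow, Nat.gcd_eq_right (Nat.ordProj_dvd _ _)]
  exact (Nat.coprime_ordCompl hp.out (orderOf_pos x).ne').symm

theorem cent_mem_cj {G : Type*} [Group G] {T : Subgroup G} {g x : G} :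
    x ∈ T.map (MulAut.conj g).toMonoidHom ↔ g⁻¹ * x * g ∈ T := by
  constructor
  · rintro ⟨t, ht, rfl⟩
    have : g⁻¹ * (MulAut.conj g).toMonoidHom t * g = t := by
      simp [MulAut.conj_apply, mul_assoc]
    rw [this]; exact ht
  · intro h
    exact ⟨g⁻¹ * x * g, h, by simp [MulAut.conj_apply, mul_assoc]⟩

theorem cent {p : ℕ} [Fact p.Prime] {G : Type u} [Group G] [Finite G] (hyp : Hyp p G) (hF1 : F1 p G)
    (hcc : ∀ (A : Subgroup G), (Nat.card ↥A).Coprime p → ∀ g ∈ normalizer (A : Set G), (orderOf g).Coprime p →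
      g ∈ centralizer (A : Set G) ∧ (Nat.card ↥(A ⊔ zpowers g)).Coprime p)
    {H : Subgroup G} (hH : MaxPIn p H ⊤) (hfix : NoFix H (normalizer (H : Set G)))
    {T : Subgroup G} (hT : Inv p H T) (hmax : ∀ T' : Subgroup G, Inv p H T' → T' ≤ T) :
    H ≤ centralizer (T : Set G) := by
  have hHc : IsMulCommutative ↥H := (hyp H hH.2.1).1
  -- `N(H) ≤ N(T)`
  have hNT : normalizer (H : Set G) ≤ normalizer (T : Set G) := by
    apply cent_le_normalizer
    intro g hg x hx
    have hinv : Inv p H (T.map (MulAut.conj g).toMonoidHom) := by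
      refine ⟨hT.1.map _, ?_⟩
      intro h hh
      rw [mem_normalizer_iff]
      intro y
      rw [cent_mem_cj, cent_mem_cj]
      have h1 : g⁻¹ * h * g ∈ H := by
        have := (mem_normalizer_iff.1 (inv_mem hg) h).1 hh
        simpa using this
      have h2 := mem_normalizer_iff.1 (hT.2 h1) (g⁻¹ * y * g)
      rw [h2]
      have : g⁻¹ * h * g * (g⁻¹ * y * g) * (g⁻¹ * h * g)⁻¹ = g⁻¹ * (h * y * h⁻¹) * g := by group
      rw [this]
    exact hmax _ hinv ⟨x, hx, by simp [MulAut.conj_apply]⟩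
  -- `[H, N(H)] ≤ C(T)`
  have hcomm : ⁅H, normalizer (H : Set G)⁆ ≤ centralizer (T : Set G) := by
    rw [commutator_le]
    intro h hh g hg
    have hmem : ⁅h, g⁆ ∈ H := by
      rw [commutatorElement_def]
      have h1 : g * h⁻¹ * g⁻¹ ∈ H := (mem_normalizer_iff.1 hg h⁻¹).1 (inv_mem hh)
      have : h * g * h⁻¹ * g⁻¹ = h * (g * h⁻¹ * g⁻¹) := by group
      rw [this]
      exact mul_mem hh h1
    have hcop : (orderOf ⁅h, g⁆).Coprime p := by
      refine Nat.Coprime.coprime_dvd_left ?_ hH.2.1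
      have := orderOf_dvd_natCard (⟨⁅h, g⁆, hmem⟩ : ↥H)
      rwa [Subgroup.orderOf_mk] at this
    exact hF1 T hT.1 h (hT.2 hh) g (hNT hg) hcop
  -- `N(H) / H` is a `p`-group
  have hn : (H.subgroupOf (normalizer (H : Set G))).Normal := normal_in_normalizer
  have hQ : IsPGroup p (↥(normalizer (H : Set G)) ⧸ H.subgroupOf (normalizer (H : Set G))) := by
    intro xb
    obtain ⟨x, rfl⟩ := QuotientGroup.mk_surjective xb
    obtain ⟨k, hk⟩ := cent_exists_pow (p := p) (x : G)
    refine ⟨k, ?_⟩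
    rw [← QuotientGroup.mk_pow, QuotientGroup.eq_one_iff]
    show ((x ^ p ^ k : ↥(normalizer (H : Set G))) : G) ∈ H
    rw [Subgroup.coe_pow]
    have h1 := (hcc H hH.2.1 ((x : G) ^ p ^ k) (pow_mem x.2 _) hk).2
    have h2 := hH.2.2 _ le_sup_left le_top h1
    exact h2.le ((le_sup_right : zpowers ((x : G) ^ p ^ k) ≤ H ⊔ zpowers ((x : G) ^ p ^ k))
      (mem_zpowers _))
  have hHall : Nat.Coprime (Nat.card ↥H) (H.relIndex (normalizer (H : Set G))) := by
    obtain ⟨n, hn'⟩ := IsPGroup.iff_card.1 hQ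
    have : H.relIndex (normalizer (H : Set G)) = p ^ n := hn'
    rw [this]
    exact hH.2.1.pow_right n
  obtain ⟨-, hsplit⟩ := Cfsg.Agent.Lib.Helper3.abelian_rel_hall_split H (normalizer (H : Set G))
    le_normalizer hn hHc hHall
  have hbot : H ⊓ centralizer ((normalizer (H : Set G) : Subgroup G) : Set G) = ⊥ := by
    rw [eq_bot_iff]
    rintro c ⟨hcH, hcC⟩
    rw [mem_bot]
    exact hfix c hcH (fun g hg => mem_centralizer_iff.1 hcC g hg)
  rw [hbot, sup_bot_eq] at hsplit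
  exact hsplit.trans hcomm

end Cfsg.Agent.Lib.Helper60.PA
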