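import Mathlib
import Cfsg.Agent.Lib.Helper60.PA.Defs

set_option autoImplicit false

namespace Cfsg.Agent.Lib.Helper60.PA

open Subgroup
open scoped commutatorElement

universe u

theorem ch_mem_sup {G : Type*} [Group G] {O H : Subgroup G}
    (hc : ∀ o ∈ O, ∀ y ∈ H, o * y = y * o) {g : G} (hg : g ∈ O ⊔ H) :
    ∃ o ∈ O, ∃ y ∈ H, g = o * y := by
  rw [Subgroup.sup_eq_closure] at hg
  induction hg using Subgroup.closure_induction with
  | mem x hx =>
    rcases hx with hx | hx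
    · exact ⟨x, hx, 1, H.one_mem, by simp⟩
    · exact ⟨1, O.one_mem, x, hx, by simp⟩
  | one => exact ⟨1, O.one_mem, 1, H.one_mem, by simp⟩
  | mul a b _ _ iha ihb =>
    obtain ⟨o1, ho1, y1, hy1, rfl⟩ := iha
    obtain ⟨o2, ho2, y2, hy2, rfl⟩ := ihb
    refine ⟨o1 * o2, O.mul_mem ho1 ho2, y1 * y2, H.mul_mem hy1 hy2, ?_⟩
    calc o1 * y1 * (o2 * y2) = o1 * (y1 * o2) * y2 := by group
      _ = o1 * (o2 * y1) * y2 := by rw [hc o2 ho2 y1 hy1]
      _ = o1 * o2 * (y1 * y2) := by group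
  | inv a _ iha =>
    obtain ⟨o1, ho1, y1, hy1, rfl⟩ := iha
    refine ⟨o1⁻¹, O.inv_mem ho1, y1⁻¹, H.inv_mem hy1, ?_⟩
    rw [mul_inv_rev]
    exact (hc _ (O.inv_mem ho1) _ (H.inv_mem hy1)).symm

theorem ch {p : ℕ} [Fact p.Prime] {G : Type u} [Group G] [Finite G] {H : Subgroup G}
    (hC : ∀ e : G, e ≠ 1 → centralizer ({e} : Set G) ≠ ⊤) (hHc : IsMulCommutative ↥H)
    (hHp : (Nat.card ↥H).Coprime p)
    (hstr : ∀ L : Subgroup G, L ≠ ⊤ → H ≤ L → StrAt p H L)
    (hcz : ∀ T : Subgroup G, Inv p H T → H ≤ centralizer (T : Set G)) :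
    ∀ h ∈ H, h ≠ 1 → centralizer ({h} : Set G) ≤ normalizer (H : Set G) := by
  intro h hh hne
  have hHL : H ≤ centralizer ({h} : Set G) := by
    intro x hx
    rw [Subgroup.mem_centralizer_iff]
    intro y hy
    rw [Set.mem_singleton_iff] at hy
    subst hy
    have := hHc.is_comm.comm ⟨y, hh⟩ ⟨x, hx⟩
    exact congrArg Subtype.val this
  obtain ⟨O, hOp, hOL, hLO, hLOH, _, _⟩ := hstr _ (hC h hne) hHL
  have hinv : Inv p H O := ⟨hOp, hHL.trans hLO⟩
  have hcen := hcz O hinv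
  have hc : ∀ o ∈ O, ∀ y ∈ H, o * y = y * o := by
    intro o ho y hy
    exact (Subgroup.mem_centralizer_iff.1 (hcen hy)) o ho
  have key : ∀ l ∈ centralizer ({h} : Set G), ∀ x ∈ H, l * x * l⁻¹ ∈ H := by
    intro l hl x hx
    have h1 : l * x * l⁻¹ ∈ O ⊔ H := by
      have := (Subgroup.mem_normalizer_iff.1 (hLOH hl)) x
      exact this.1 (Subgroup.mem_sup_right hx)
    obtain ⟨o, ho, y, hy, e⟩ := ch_mem_sup hc h1
    have hxn : x ^ Nat.card H = 1 := by
      have := pow_card_eq_one' (G := H) (x := ⟨x, hx⟩)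
      exact congrArg Subtype.val this
    have hyn : y ^ Nat.card H = 1 := by
      have := pow_card_eq_one' (G := H) (x := ⟨y, hy⟩)
      exact congrArg Subtype.val this
    have h2 : (l * x * l⁻¹) ^ Nat.card H = 1 := by
      rw [conj_pow, hxn]; simp
    have h3 : o ^ Nat.card H = 1 := by
      rw [e, (show Commute o y from hc o ho y hy).mul_pow, hyn, mul_one] at h2
      exact h2
    obtain ⟨k, hk⟩ := hOp ⟨o, ho⟩
    have hk' : o ^ p ^ k = 1 := congrArg Subtype.val hk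
    have h4 : orderOf o ∣ Nat.gcd (Nat.card H) (p ^ k) :=
      Nat.dvd_gcd (orderOf_dvd_of_pow_eq_one h3) (orderOf_dvd_of_pow_eq_one hk')
    have h5 : Nat.gcd (Nat.card H) (p ^ k) = 1 := Nat.Coprime.pow_right k hHp
    rw [h5, Nat.dvd_one, orderOf_eq_one_iff] at h4
    rw [e, h4, one_mul]
    exact hy
  intro l hl
  rw [Subgroup.mem_normalizer_iff]
  intro x
  constructor
  · exact fun hx => key l hl x hx
  · intro hx
    have := key l⁻¹ (Subgroup.inv_mem _ hl) _ hx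
    simpa [mul_assoc] using this

end Cfsg.Agent.Lib.Helper60.PA
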