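import Mathlib
import Cfsg.Agent.Lib.Helper60.PA.Defs

set_option autoImplicit false

namespace Cfsg.Agent.Lib.Helper60.PA

open Subgroup
open scoped commutatorElement

universe u

theorem cnt_prod {p : ℕ} (s : Finset ℕ) (f : ℕ → ℕ) (h : ∀ q ∈ s, f q ≡ 1 [MOD p]) :
    ∏ q ∈ s, f q ≡ 1 [MOD p] := by
  classical
  induction s using Finset.induction_on with
  | empty => simp; exact Nat.ModEq.refl _
  | insert a s ha ih =>
    rw [Finset.prod_insert ha]
    have h1 := h a (Finset.mem_insert_self a s)
    have h2 := ih (fun q hq => h q (Finset.mem_insert_of_mem hq))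
    simpa using h1.mul h2

theorem cnt {p : ℕ} [Fact p.Prime] {G : Type u} [Group G] [Finite G] (P : Sylow p G)
    (hq : ∀ (q : ℕ) [Fact q.Prime], q ≠ p → ∀ Q : Sylow q G, Nat.card ↥(Q : Subgroup G) ≡ 1 [MOD p]) :
    (P : Subgroup G).relIndex (normalizer ((P : Subgroup G) : Set G)) ≡ 1 [MOD p] := by
  classical
  have hp : p.Prime := Fact.out
  have h1 : (P : Subgroup G).relIndex (normalizer ((P : Subgroup G) : Set G))
      * (normalizer ((P : Subgroup G) : Set G)).index = (P : Subgroup G).index :=
    Subgroup.relIndex_mul_index le_normalizer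
  have h2 : (normalizer ((P : Subgroup G) : Set G)).index ≡ 1 [MOD p] := by
    have h := P.card_eq_index_normalizer
    have h' : (normalizer ((P : Subgroup G) : Set G)).index = Nat.card (Sylow p G) := h.symm
    rw [h']
    exact card_sylow_modEq_one p G
  have hm0 : (P : Subgroup G).index ≠ 0 := Subgroup.index_ne_zero_of_finite
  have hnd : ¬ p ∣ (P : Subgroup G).index := P.not_dvd_index
  have hcard : Nat.card G = (P : Subgroup G).index * p ^ (Nat.card G).factorization p := by
    rw [← P.card_eq_multiplicity, mul_comm]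
    exact ((P : Subgroup G).card_mul_index).symm
  have h3 : (P : Subgroup G).index ≡ 1 [MOD p] := by
    conv_lhs => rw [← Nat.prod_factorization_pow_eq_self hm0]
    rw [Finsupp.prod]
    apply cnt_prod
    intro q hqm
    rw [Nat.support_factorization] at hqm
    have hqp : q.Prime := Nat.prime_of_mem_primeFactors hqm
    have hqd : q ∣ (P : Subgroup G).index := Nat.dvd_of_mem_primeFactors hqm
    have hne : q ≠ p := fun h => hnd (h ▸ hqd)
    haveI : Fact q.Prime := ⟨hqp⟩
    obtain ⟨Q⟩ : Nonempty (Sylow q G) := inferInstance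
    have h4 := hq q hne Q
    rw [Q.card_eq_multiplicity] at h4
    have h5 : (Nat.card G).factorization q = ((P : Subgroup G).index).factorization q := by
      conv_lhs => rw [hcard]
      rw [Nat.factorization_mul hm0 (pow_ne_zero _ hp.ne_zero), Finsupp.add_apply,
        hp.factorization_pow, Finsupp.single_apply, if_neg (fun h => hne h.symm), add_zero]
    rw [h5] at h4
    exact h4
  have h6 := (Nat.ModEq.refl ((P : Subgroup G).relIndex (normalizer ((P : Subgroup G) : Set G)))).mul h2
  rw [h1, mul_one] at h6
  exact h6.symm.trans h3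

end Cfsg.Agent.Lib.Helper60.PA
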