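import Mathlib
import Cfsg.Prelude.Def_LocalEven
import Cfsg.Prelude.Def_PLocal
import Cfsg.Prelude.Def_EvenType
import Cfsg.Agent.Lib.Helper60.PA.Defs

set_option autoImplicit false

namespace Cfsg.Agent.Lib.Helper60.PA

open Subgroup
open scoped commutatorElement

universe u

theorem e3_arith {p q r : ℕ} (hpp : p.Prime) (hq : q.Prime) (hp : 3 < p) (hqp : q < p) (hr : r ≠ 0)
    (h : q ^ r ≡ 1 [MOD p]) : 3 ≤ r := by
  by_contra hcon
  have hr12 : r = 1 ∨ r = 2 := by omega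
  have hq1 := hq.one_lt
  rcases hr12 with rfl | rfl
  · rw [pow_one] at h
    have h1 : q % p = 1 % p := h
    rw [Nat.mod_eq_of_lt hqp, Nat.mod_eq_of_lt (by omega)] at h1
    omega
  · have h1 : p ∣ q ^ 2 - 1 := (Nat.modEq_iff_dvd' (Nat.one_le_pow _ _ (by omega))).1 h.symm
    have h2 : q ^ 2 - 1 = (q - 1) * (q + 1) := by
      obtain ⟨k, rfl⟩ : ∃ k, q = k + 1 := ⟨q - 1, by omega⟩
      simp only [Nat.add_sub_cancel]
      have : (k + 1) ^ 2 = k * (k + 1 + 1) + 1 := by ring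
      rw [this, Nat.add_sub_cancel]
    rw [h2] at h1
    rcases (Nat.Prime.dvd_mul hpp).1 h1 with h3 | h3
    · have := Nat.le_of_dvd (by omega) h3
      omega
    · have h4 := Nat.le_of_dvd (by omega) h3
      have h5 : q + 1 = p := by omega
      rcases hq.eq_two_or_odd with h6 | h6
      · omega
      · rcases hpp.eq_two_or_odd with h7 | h7
        · omega
        · omega

theorem e3 {p : ℕ} [Fact p.Prime] {G : Type u} [Group G] [Finite G] (hyp : Hyp p G) (hp : 3 < p)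
    (hcc : ∀ (A : Subgroup G), (Nat.card ↥A).Coprime p → ∀ g ∈ normalizer (A : Set G), (orderOf g).Coprime p →
      g ∈ centralizer (A : Set G) ∧ (Nat.card ↥(A ⊔ zpowers g)).Coprime p)
    (hmodl : ∀ V N : Subgroup G, N ≤ normalizer (V : Set G) →
      (∀ g ∈ N, (orderOf g).Coprime p → g ∈ centralizer (V : Set G)) → NoFix V N → Nat.card ↥V ≡ 1 [MOD p])
    {H : Subgroup G} (hH : MaxPIn p H ⊤) (hne : H ≠ ⊥) (hfix : NoFix H (normalizer (H : Set G))) :
    ∃ (q : ℕ) (E : Subgroup G), q.Prime ∧ q ≠ p ∧ E ≤ H ∧ Nat.card ↥E = q ^ 3 ∧ ∀ e ∈ E, e ^ q = 1 := by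
  have hpp : p.Prime := Fact.out
  obtain ⟨hHc, hHe⟩ := hyp H hH.2.1
  have hcomm : ∀ a ∈ H, ∀ b ∈ H, a * b = b * a := by
    intro a ha b hb
    exact congrArg Subtype.val (hHc.is_comm.comm ⟨a, ha⟩ ⟨b, hb⟩)
  have hcard1 : Nat.card H ≠ 1 := fun h => hne (Subgroup.card_eq_one.1 h)
  obtain ⟨q, hq, hqH⟩ := Nat.exists_prime_and_dvd hcard1
  have : Fact q.Prime := ⟨hq⟩
  have hqp : q ≠ p := by
    rintro rfl
    have h1 : q ∣ Nat.gcd (Nat.card H) q := Nat.dvd_gcd hqH dvd_rfl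
    rw [hH.2.1] at h1
    exact hq.one_lt.ne' (Nat.dvd_one.1 h1)
  obtain ⟨x, hx⟩ := exists_prime_orderOf_dvd_card' q hqH
  have hxo : orderOf (x : G) = q := by rw [Subgroup.orderOf_coe, hx]
  have hqlt : q < p := by
    have h1 : q ∣ p - 1 := by
      rw [← hxo]
      exact orderOf_dvd_of_pow_eq_one (hHe x x.2)
    have := Nat.le_of_dvd (by omega) h1
    omega
  let V : Subgroup G :=
    { carrier := {y | y ∈ H ∧ y ^ q = 1}
      one_mem' := ⟨H.one_mem, one_pow _⟩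
      mul_mem' := by
        rintro a b ⟨ha, ha'⟩ ⟨hb, hb'⟩
        refine ⟨H.mul_mem ha hb, ?_⟩
        rw [(show Commute a b from hcomm a ha b hb).mul_pow, ha', hb', one_mul]
      inv_mem' := by
        rintro a ⟨ha, ha'⟩
        exact ⟨H.inv_mem ha, by rw [inv_pow, ha', inv_one]⟩ }
  have hV : ∀ y, y ∈ V ↔ y ∈ H ∧ y ^ q = 1 := fun y => Iff.rfl
  have hVH : V ≤ H := fun y hy => hy.1
  have hnorm : normalizer (H : Set G) ≤ normalizer (V : Set G) := by
    intro g hg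
    rw [mem_normalizer_iff] at hg ⊢
    intro y
    rw [hV, hV, ← hg y, conj_pow]
    constructor
    · rintro ⟨h1, h2⟩
      exact ⟨h1, by rw [h2]; simp⟩
    · rintro ⟨h1, h2⟩
      refine ⟨h1, ?_⟩
      have : y ^ q = g⁻¹ * (g * y ^ q * g⁻¹) * g := by group
      rw [this, h2]; simp
  have hcen : ∀ g ∈ normalizer (H : Set G), (orderOf g).Coprime p → g ∈ centralizer (V : Set G) := by
    intro g hg hgo
    exact Subgroup.centralizer_le hVH (hcc H hH.2.1 g hg hgo).1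
  have hnf : NoFix V (normalizer (H : Set G)) := fun c hc h => hfix c (hVH hc) h
  have hmod := hmodl V (normalizer (H : Set G)) hnorm hcen hnf
  have hVq : IsPGroup q V := by
    intro y
    refine ⟨1, ?_⟩
    rw [pow_one]
    exact Subtype.ext y.2.2
  obtain ⟨r, hr⟩ := IsPGroup.iff_card.1 hVq
  have hr0 : r ≠ 0 := by
    rintro rfl
    rw [pow_zero] at hr
    have h1 : V = ⊥ := Subgroup.card_eq_one.1 hr
    have h2 : (x : G) ∈ V := ⟨x.2, by rw [← hxo, pow_orderOf_eq_one]⟩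
    rw [h1, Subgroup.mem_bot] at h2
    rw [h2, orderOf_one] at hxo
    exact hq.one_lt.ne hxo
  rw [hr] at hmod
  have hr3 := e3_arith hpp hq hp hqlt hr0 hmod
  obtain ⟨K, hK⟩ := Sylow.exists_subgroup_card_pow_prime (G := V) q (n := 3)
    (by rw [hr]; exact pow_dvd_pow q hr3)
  refine ⟨q, K.map V.subtype, hq, hqp, ?_, ?_, ?_⟩
  · rintro _ ⟨y, -, rfl⟩
    exact hVH y.2
  · rw [Subgroup.card_map_of_injective V.subtype_injective, hK]
  · rintro _ ⟨y, -, rfl⟩
    exact y.2.2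

end Cfsg.Agent.Lib.Helper60.PA
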