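import Mathlib
import Cfsg.Agent.Lib.Helper60.PA.Defs
import Cfsg.Agent.S0058

set_option autoImplicit false

namespace Cfsg.Agent.Lib.Helper60.PA

open Subgroup
open scoped commutatorElement

universe u

theorem ef1_le_normalizer {G : Type*} [Group G] {E W : Subgroup G}
    (h : ∀ g ∈ E, ∀ x ∈ W, g * x * g⁻¹ ∈ W) : E ≤ normalizer (W : Set G) := by
  intro g hg
  rw [mem_normalizer_iff]
  intro x
  refine ⟨h g hg x, fun hx => ?_⟩
  have := h g⁻¹ (E.inv_mem hg) _ hx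
  simpa [mul_assoc] using this

theorem ef1_mem_zpowers {V : Type*} [Group V] {q : ℕ} (hq : q.Prime) {z : V} (hz : z ^ q = 1) {i : ℤ}
    (hi : z ^ i ≠ 1) : z ∈ zpowers (z ^ i) := by
  have hnd : ¬ (q : ℤ) ∣ i := by
    rintro ⟨c, rfl⟩
    apply hi
    rw [zpow_mul, zpow_natCast, hz, one_zpow]
  have hcop : IsCoprime (q : ℤ) i := (Prime.coprime_iff_not_dvd (Nat.prime_iff_prime_int.1 hq)).2 hnd
  obtain ⟨a, b, hab⟩ := hcop
  refine mem_zpowers_iff.2 ⟨b, ?_⟩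
  have h1 : z ^ (a * (q : ℤ) + b * i) = z := by rw [hab, zpow_one]
  rw [zpow_add, mul_comm a, zpow_mul, zpow_natCast, hz, one_zpow, one_mul, mul_comm b, zpow_mul] at h1
  exact h1

theorem ef1_compl {V : Type*} [CommGroup V] [Finite V] {q : ℕ} (hq : q.Prime) (hexp : ∀ v : V, v ^ q = 1)
    (B : Subgroup V) : ∃ A : Subgroup V, A ⊓ B = ⊥ ∧ A ⊔ B = ⊤ := by
  classical
  obtain ⟨A, hA⟩ := (Set.toFinite {A : Subgroup V | A ⊓ B = ⊥}).exists_maximal ⟨⊥, by simp⟩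
  have hAB : A ⊓ B = ⊥ := hA.prop
  refine ⟨A, hAB, ?_⟩
  rw [eq_top_iff]
  intro z _
  by_contra hz
  have hA' : (A ⊔ zpowers z) ⊓ B = ⊥ := by
    rw [eq_bot_iff]
    rintro w ⟨hw1, hw2⟩
    obtain ⟨a, ha, c, hc, rfl⟩ := mem_sup.1 hw1
    obtain ⟨i, rfl⟩ := mem_zpowers_iff.1 hc
    by_cases hzi : z ^ i = 1
    · rw [hzi, mul_one] at hw2 ⊢
      have h3 : a ∈ A ⊓ B := ⟨ha, hw2⟩
      rw [hAB] at h3
      exact h3
    · exfalso
      apply hz
      have h1 : z ∈ zpowers (z ^ i) := ef1_mem_zpowers hq (hexp z) hzi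
      have h2 : z ^ i ∈ A ⊔ B := by
        have h3 : z ^ i = a⁻¹ * (a * z ^ i) := by group
        rw [h3]
        exact mul_mem_sup (A.inv_mem ha) hw2
      exact (zpowers_le.2 h2) h1
  have h4 : A ⊔ zpowers z ≤ A := hA.le_of_ge hA' le_sup_left
  exact hz (le_sup_left (a := A) (b := B) (h4 (le_sup_right (a := A) (mem_zpowers z))))

theorem ef1 {p : ℕ} [Fact p.Prime] {G : Type u} [Group G] [Finite G] {q : ℕ} (hq : q.Prime) (hqp : q ≠ p)
    {E T : Subgroup G} (hE : Nat.card ↥E = q ^ 3) (hEc : IsMulCommutative ↥E) (hEe : ∀ e ∈ E, e ^ q = 1)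
    (hT : IsPGroup p ↥T) (hn : E ≤ normalizer (T : Set G)) (hne : T ≠ ⊥) :
    ∃ B : Subgroup G, B ≤ E ∧ q ^ 2 ∣ Nat.card ↥B ∧ T ⊓ centralizer (B : Set G) ≠ ⊥ := by
  classical
  have hp : p.Prime := Fact.out
  have hcommE : ∀ a ∈ E, ∀ b ∈ E, a * b = b * a := by
    intro a ha b hb
    exact congrArg Subtype.val (hEc.is_comm.comm ⟨a, ha⟩ ⟨b, hb⟩)
  obtain ⟨U, hU⟩ := (Set.toFinite {U : Subgroup G | U ≤ T ∧ U ≠ ⊥ ∧ E ≤ normalizer (U : Set G)}).exists_minimal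
    ⟨T, le_rfl, hne, hn⟩
  obtain ⟨hUT, hUne, hUn⟩ := hU.prop
  have hdich : ∀ e ∈ E, U ⊓ centralizer ({e} : Set G) ≠ ⊥ → U ≤ centralizer ({e} : Set G) := by
    intro e he hne'
    have hinv : E ≤ normalizer ((U ⊓ centralizer ({e} : Set G) : Subgroup G) : Set G) := by
      apply ef1_le_normalizer
      intro g hg x hx
      obtain ⟨hx1, hx2⟩ := mem_inf.1 hx
      refine mem_inf.2 ⟨(mem_normalizer_iff.1 (hUn hg) x).1 hx1, ?_⟩
      rw [mem_centralizer_singleton_iff] at hx2 ⊢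
      have h1 := hcommE g hg e he
      have h2 : g⁻¹ * e = e * g⁻¹ := by
        rw [inv_mul_eq_iff_eq_mul, ← mul_assoc, h1, mul_assoc, mul_inv_cancel, mul_one]
      calc g * x * g⁻¹ * e = g * x * (g⁻¹ * e) := by group
        _ = g * (x * e) * g⁻¹ := by rw [h2]; group
        _ = (g * e) * x * g⁻¹ := by rw [hx2]; group
        _ = e * (g * x * g⁻¹) := by rw [h1]; group
    have := hU.le_of_le (y := U ⊓ centralizer ({e} : Set G)) ⟨inf_le_left.trans hUT, hne', hinv⟩ inf_le_left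
    exact this.trans inf_le_right
  set B := E ⊓ centralizer (U : Set G) with hB
  have hBE : B ≤ E := inf_le_left
  refine ⟨B, hBE, ?_, ?_⟩
  swap
  · intro hbot
    apply hUne
    rw [eq_bot_iff, ← hbot]
    refine le_inf hUT ?_
    rw [le_centralizer_iff]
    exact inf_le_right
  have hBdvd : Nat.card ↥B ∣ q ^ 3 := hE ▸ Subgroup.card_dvd_of_le hBE
  obtain ⟨j, -, hj⟩ := (Nat.dvd_prime_pow hq).1 hBdvd
  by_cases hj2 : 2 ≤ j
  · rw [hj]; exact pow_dvd_pow q hj2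
  exfalso
  have hBle : Nat.card ↥B ≤ q := by
    rw [hj]
    calc q ^ j ≤ q ^ 1 := Nat.pow_le_pow_right hq.pos (by omega)
      _ = q := pow_one q
  let _ : CommGroup ↥E := { (inferInstance : Group ↥E) with mul_comm := hEc.is_comm.comm }
  obtain ⟨A', hA'1, hA'2⟩ := ef1_compl (V := ↥E) hq
    (fun v => Subtype.ext (by simpa using hEe v.1 v.2)) (B.subgroupOf E)
  have hcardB' : Nat.card ↥(B.subgroupOf E) = Nat.card ↥B :=
    Nat.card_congr (Subgroup.subgroupOfEquivOfLe hBE).toEquiv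
  have hsurj : Function.Surjective (fun x : ↥A' × ↥(B.subgroupOf E) => (x.1 : ↥E) * (x.2 : ↥E)) := by
    intro z
    have hz : z ∈ A' ⊔ B.subgroupOf E := by rw [hA'2]; exact mem_top z
    obtain ⟨a, ha, b, hb, rfl⟩ := mem_sup.1 hz
    exact ⟨(⟨a, ha⟩, ⟨b, hb⟩), rfl⟩
  have hcard := Nat.card_le_card_of_surjective _ hsurj
  rw [Nat.card_prod, hcardB', hE] at hcard
  set A := A'.map E.subtype with hA
  have hAE : A ≤ E := map_subtype_le A'
  have hcardA : Nat.card ↥A = Nat.card ↥A' := Subgroup.card_map_of_injective E.subtype_injective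
  have hAcomm : IsMulCommutative ↥A :=
    ⟨⟨fun x y => Subtype.ext (hcommE x.1 (hAE x.2) y.1 (hAE y.2))⟩⟩
  have hAnc : ¬ IsCyclic ↥A := by
    intro hcyc
    obtain ⟨g, hg⟩ := hcyc.exists_generator
    have h1 : orderOf g = Nat.card ↥A := orderOf_eq_card_of_forall_mem_zpowers hg
    have h2 : orderOf g ≤ q := orderOf_le_of_pow_eq_one hq.pos
      (Subtype.ext (by simpa using hEe g.1 (hAE g.2)))
    have h3 : Nat.card ↥A' ≤ q := by rw [← hcardA, ← h1]; exact h2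
    have h4 : q ^ 3 ≤ q * q := hcard.trans (Nat.mul_le_mul h3 hBle)
    have h5 : q * q < q ^ 3 := by
      have : q ^ 2 < q ^ 3 := Nat.pow_lt_pow_right hq.one_lt (by norm_num)
      rwa [sq] at this
    omega
  have hcop : (Nat.card ↥A).Coprime (Nat.card ↥U) := by
    obtain ⟨k, hk⟩ := (hT.to_le hUT).exists_card_eq
    rw [hk]
    apply Nat.Coprime.pow_right
    have h1 : Nat.card ↥A ∣ q ^ 3 := hE ▸ Subgroup.card_dvd_of_le hAE
    refine Nat.Coprime.coprime_dvd_left h1 ?_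
    exact Nat.Coprime.pow_left 3 ((Nat.coprime_primes hq hp).2 hqp)
  have hgen := Cfsg.Agent.S0058.result A U hAnc (hAE.trans hUn) hcop
  apply hUne
  rw [← hgen, eq_bot_iff]
  refine iSup₂_le ?_
  rintro a ⟨ha, ha1⟩
  by_contra hcon
  have hne' : U ⊓ centralizer ({a} : Set G) ≠ ⊥ := fun h => hcon (h ▸ le_rfl)
  have h1 := hdich a (hAE ha) hne'
  have h2 : a ∈ B := by
    refine mem_inf.2 ⟨hAE ha, ?_⟩
    rw [mem_centralizer_iff]
    intro u hu
    have := h1 hu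
    rw [mem_centralizer_singleton_iff] at this
    exact this
  obtain ⟨a', ha', rfl⟩ := ha
  have h3 : a' ∈ A' ⊓ B.subgroupOf E := ⟨ha', mem_subgroupOf.2 h2⟩
  rw [hA'1, mem_bot] at h3
  apply ha1
  rw [h3]
  rfl

end Cfsg.Agent.Lib.Helper60.PA
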