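import Mathlib
import Cfsg.Agent.Lib.Helper60.PA.Defs

set_option autoImplicit false

namespace Cfsg.Agent.Lib.Helper60.PA

open Subgroup
open scoped commutatorElement

universe u

theorem ef2 {G : Type u} [Group G] [Finite G] {q : ℕ} (hq : q.Prime)
    {E B₁ B₂ : Subgroup G} (hE : Nat.card ↥E = q ^ 3) (h1 : B₁ ≤ E) (h2 : B₂ ≤ E)
    (hc1 : q ^ 2 ∣ Nat.card ↥B₁) (hc2 : q ^ 2 ∣ Nat.card ↥B₂) : ∃ e, e ∈ B₁ ∧ e ∈ B₂ ∧ e ≠ 1 := by
  by_contra hcon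
  have hdisj : Disjoint B₁ B₂ := by
    rw [Subgroup.disjoint_def]
    intro x hx1 hx2
    by_contra hx
    exact hcon ⟨x, hx1, hx2, hx⟩
  have hinj := Subgroup.mul_injective_of_disjoint hdisj
  have hle : Nat.card (B₁ × B₂) ≤ Nat.card E := by
    apply Nat.card_le_card_of_injective
      (fun g : B₁ × B₂ => (⟨(g.1 : G) * g.2, E.mul_mem (h1 g.1.2) (h2 g.2.2)⟩ : E))
    intro a b hab
    exact hinj (congrArg Subtype.val hab)
  rw [Nat.card_prod, hE] at hle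
  have a1 := Nat.le_of_dvd Nat.card_pos hc1
  have a2 := Nat.le_of_dvd Nat.card_pos hc2
  have h3 : q ^ 2 * q ^ 2 ≤ q ^ 3 := le_trans (Nat.mul_le_mul a1 a2) hle
  have h4 : q ^ 3 < q ^ 4 := Nat.pow_lt_pow_right hq.one_lt (by norm_num)
  have h5 : q ^ 2 * q ^ 2 = q ^ 4 := by ring
  omega

end Cfsg.Agent.Lib.Helper60.PA
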