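import Mathlib
import Cfsg.Prelude.Def_LocalEven
import Cfsg.Prelude.Def_PLocal
import Cfsg.Prelude.Def_EvenType
import Cfsg.Agent.Lib.Helper60.PA.Defs

/-! Ladder PA, rung F1R. -/

set_option autoImplicit false

namespace Cfsg.Agent.Lib.Helper60.PA

open Subgroup
open scoped commutatorElement

universe u

/-- `g` and `h` induce the same map on `T` by conjugation. -/
def F1Same {G : Type*} [Group G] (T : Subgroup G) (g h : G) : Prop :=
  ∀ t ∈ T, g * t * g⁻¹ = h * t * h⁻¹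

theorem F1Same.mul {G : Type*} [Group G] {T : Subgroup G} {g h g' h' : G} (h1 : F1Same T g h)
    (h2 : F1Same T g' h') (hg' : g' ∈ normalizer (T : Set G)) : F1Same T (g * g') (h * h') := by
  intro t ht
  have h3 : g' * t * g'⁻¹ ∈ T := (mem_normalizer_iff.1 hg' t).1 ht
  calc g * g' * t * (g * g')⁻¹ = g * (g' * t * g'⁻¹) * g⁻¹ := by group
    _ = h * (g' * t * g'⁻¹) * h⁻¹ := h1 _ h3
    _ = h * (h' * t * h'⁻¹) * h⁻¹ := by rw [h2 t ht]
    _ = h * h' * t * (h * h')⁻¹ := by group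

theorem F1Same.inv {G : Type*} [Group G] {T : Subgroup G} {g h : G} (h1 : F1Same T g h)
    (hg : g ∈ normalizer (T : Set G)) : F1Same T g⁻¹ h⁻¹ := by
  intro t ht
  have h3 : g⁻¹ * t * g⁻¹⁻¹ ∈ T := (mem_normalizer_iff.1 (inv_mem hg) t).1 ht
  have h4 := h1 _ h3
  have h5 : g * (g⁻¹ * t * g⁻¹⁻¹) * g⁻¹ = t := by group
  rw [h5] at h4
  calc g⁻¹ * t * g⁻¹⁻¹ = h⁻¹ * (h * (g⁻¹ * t * g⁻¹⁻¹) * h⁻¹) * h⁻¹⁻¹ := by group
    _ = h⁻¹ * t * h⁻¹⁻¹ := by rw [← h4]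

theorem F1Same.pow {G : Type*} [Group G] {T : Subgroup G} {g h : G} (h1 : F1Same T g h)
    (hg : g ∈ normalizer (T : Set G)) (n : ℕ) : F1Same T (g ^ n) (h ^ n) := by
  induction n with
  | zero => intro t _; simp
  | succ n ih =>
    rw [pow_succ, pow_succ]
    exact ih.mul h1 hg

theorem f1 {p : ℕ} [Fact p.Prime] {G : Type u} [Group G] [Finite G]
    (hctl : ∀ (P : Sylow p G) (A : Set G), A ⊆ (P : Subgroup G) →
      Cfsg.ControlsStrongFusionOf (normalizer ((P : Subgroup G) : Set G)) (P : Subgroup G) A)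
    (hab : ∀ (P : Sylow p G), ∀ n ∈ normalizer ((P : Subgroup G) : Set G),
      ∀ m ∈ normalizer ((P : Subgroup G) : Set G), ⁅n, m⁆ ∈ (P : Subgroup G)) : F1 p G := by
  intro T hT a ha b hb hcop
  obtain ⟨P, hTP⟩ := hT.exists_le_sylow
  have hex : ∀ g ∈ normalizer (T : Set G), ∃ x ∈ normalizer ((P : Subgroup G) : Set G), F1Same T g x := by
    intro g hg
    obtain ⟨x, hx, hxe⟩ := (hctl P (T : Set G) hTP).2 g (by
      rintro _ ⟨t, ht, rfl⟩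
      exact hTP ((mem_normalizer_iff.1 hg t).1 ht))
    exact ⟨x, hx, fun t ht => hxe t ht⟩
  obtain ⟨x, hx, hax⟩ := hex a ha
  obtain ⟨y, hy, hby⟩ := hex b hb
  have hsame : F1Same T ⁅a, b⁆ ⁅x, y⁆ := by
    rw [commutatorElement_def, commutatorElement_def]
    exact ((hax.mul hby hb).mul (hax.inv ha) (inv_mem ha)).mul (hby.inv hb) (inv_mem hb)
  have hcN : ⁅a, b⁆ ∈ normalizer (T : Set G) := by
    rw [commutatorElement_def]
    exact mul_mem (mul_mem (mul_mem ha hb) (inv_mem ha)) (inv_mem hb)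
  obtain ⟨k, hk⟩ := P.2 ⟨⁅x, y⁆, hab P x hx y hy⟩
  have hk' : ⁅x, y⁆ ^ p ^ k = 1 := by simpa using congrArg Subtype.val hk
  have hpow : ⁅a, b⁆ ^ p ^ k ∈ centralizer (T : Set G) := by
    rw [mem_centralizer_iff]
    intro t ht
    have h1 := hsame.pow hcN (p ^ k) t ht
    rw [hk'] at h1
    have h2 : ⁅a, b⁆ ^ p ^ k * t * (⁅a, b⁆ ^ p ^ k)⁻¹ = t := by simpa using h1
    calc t * ⁅a, b⁆ ^ p ^ k = (⁅a, b⁆ ^ p ^ k * t * (⁅a, b⁆ ^ p ^ k)⁻¹) * ⁅a, b⁆ ^ p ^ k := by rw [h2]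
      _ = ⁅a, b⁆ ^ p ^ k * t := by group
  -- `⁅a, b⁆` is a power of `⁅a, b⁆ ^ p ^ k`
  have hc : (p ^ k).Coprime (orderOf ⁅a, b⁆) := (hcop.pow_right k).symm
  obtain ⟨m, hm⟩ := exists_pow_eq_self_of_coprime hc
  rw [← hm]
  exact pow_mem hpow m

end Cfsg.Agent.Lib.Helper60.PA
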