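import Mathlib
import Cfsg.Agent.Lib.Helper60.PA.Defs
import Cfsg.Agent.S0058

set_option autoImplicit false

namespace Cfsg.Agent.Lib.Helper60.PA

open Subgroup
open scoped commutatorElement

universe u

theorem finA_exists_max {p : ℕ} {G : Type*} [Group G] [Finite G] {K : Subgroup G}
    (hKc : (Nat.card ↥K).Coprime p) : ∃ H : Subgroup G, MaxPIn p H ⊤ ∧ K ≤ H := by
  obtain ⟨m, hle, hm⟩ :=
    (Set.toFinite {H : Subgroup G | (Nat.card ↥H).Coprime p}).exists_le_maximal hKc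
  exact ⟨m, ⟨le_top, hm.1, fun H' hle' _ hH' => le_antisymm (hm.2 hH' hle') hle'⟩, hle⟩

theorem finA {p : ℕ} [Fact p.Prime] {G : Type u} [Group G] [Finite G] (hyp : Hyp p G) (P : Sylow p G)
    (hch : ∀ H : Subgroup G, MaxPIn p H ⊤ → ∀ h ∈ H, h ≠ 1 → centralizer ({h} : Set G) ≤ normalizer (H : Set G))
    {K : Subgroup G} (hK : K ≤ normalizer ((P : Subgroup G) : Set G)) (hKc : (Nat.card ↥K).Coprime p)
    (hKmod : Nat.card ↥K ≡ 1 [MOD p]) : K ≤ centralizer ((P : Subgroup G) : Set G) := by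
  have hp : p.Prime := Fact.out
  obtain ⟨H, hH, hKH⟩ := finA_exists_max hKc
  obtain ⟨hKcomm, hKexp⟩ := hyp K hKc
  have hdisj : ∀ g ∈ H, g ∈ (P : Subgroup G) → g = 1 := by
    intro g hgH hgP
    have h1 : g ^ Nat.card H = 1 := congrArg Subtype.val (pow_card_eq_one' (G := H) (x := ⟨g, hgH⟩))
    obtain ⟨k, hk⟩ := P.2 ⟨g, hgP⟩
    have hk' : g ^ p ^ k = 1 := congrArg Subtype.val hk
    have h4 : orderOf g ∣ Nat.gcd (Nat.card H) (p ^ k) :=
      Nat.dvd_gcd (orderOf_dvd_of_pow_eq_one h1) (orderOf_dvd_of_pow_eq_one hk')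
    have h5 : Nat.gcd (Nat.card H) (p ^ k) = 1 := Nat.Coprime.pow_right k hH.2.1
    rw [h5, Nat.dvd_one, orderOf_eq_one_iff] at h4
    exact h4
  have key : ∀ y ∈ K, y ≠ 1 → ∀ x ∈ (P : Subgroup G), x ∈ centralizer ({y} : Set G) →
      ∀ k ∈ K, k * x = x * k := by
    intro y hy hy1 x hxP hxC k hk
    have hxN : x ∈ normalizer (H : Set G) := hch H hH y (hKH hy) hy1 hxC
    have h1 : x * k * x⁻¹ ∈ H := (Subgroup.mem_normalizer_iff.1 hxN k).1 (hKH hk)
    have h2 : x * k * x⁻¹ * k⁻¹ ∈ H := H.mul_mem h1 (H.inv_mem (hKH hk))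
    have h3 : k * x⁻¹ * k⁻¹ ∈ (P : Subgroup G) :=
      (Subgroup.mem_normalizer_iff.1 (hK hk) x⁻¹).1 ((P : Subgroup G).inv_mem hxP)
    have h4 : x * k * x⁻¹ * k⁻¹ ∈ (P : Subgroup G) := by
      have : x * k * x⁻¹ * k⁻¹ = x * (k * x⁻¹ * k⁻¹) := by group
      rw [this]
      exact (P : Subgroup G).mul_mem hxP h3
    have h5 := hdisj _ h2 h4
    have : x * k = k * x := by
      have h6 : x * k * x⁻¹ * k⁻¹ * (k * x) = k * x := by rw [h5, one_mul]
      rw [← h6]; group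
    exact this.symm
  by_cases hcyc : IsCyclic K
  · obtain ⟨g, hg⟩ := hcyc.exists_generator
    have h1 : orderOf g = Nat.card K := orderOf_eq_card_of_forall_mem_zpowers hg
    have h2 : g ^ (p - 1) = 1 := Subtype.ext (by simpa using hKexp g g.2)
    have h3 : Nat.card K ∣ p - 1 := h1 ▸ orderOf_dvd_of_pow_eq_one h2
    have h4 : Nat.card K ≤ p - 1 := Nat.le_of_dvd (by have := hp.two_le; omega) h3
    have h5 : Nat.card K = 1 := by
      have hlt : Nat.card K < p := by have := hp.two_le; omega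
      have h6 := hKmod
      unfold Nat.ModEq at h6
      rw [Nat.mod_eq_of_lt hlt, Nat.mod_eq_of_lt hp.one_lt] at h6
      exact h6
    have h6 : K = ⊥ := (Subgroup.card_eq_one).1 h5
    rw [h6]
    exact bot_le
  · have hcop : (Nat.card K).Coprime (Nat.card (P : Subgroup G)) := by
      obtain ⟨n, hn⟩ := (IsPGroup.iff_card).1 P.2
      rw [hn]
      exact Nat.Coprime.pow_right n hKc
    have hgen := Cfsg.Agent.S0058.result K (P : Subgroup G) hcyc hK hcop
    rw [Subgroup.le_centralizer_iff]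
    rw [← hgen]
    refine iSup₂_le ?_
    rintro a ⟨haK, ha1⟩
    rintro x ⟨hxP, hxC⟩
    rw [Subgroup.mem_centralizer_iff]
    intro k hk
    exact key a haK ha1 x hxP hxC k hk

end Cfsg.Agent.Lib.Helper60.PA
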