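import Mathlib
import Cfsg.Agent.Lib.Helper60.PA.Defs

set_option autoImplicit false

namespace Cfsg.Agent.Lib.Helper60.PA

open Subgroup
open scoped commutatorElement

universe u

theorem finB_comm {G : Type*} [Group G] {x y k l : G} (hky : k * y = y * k) (hkl : k * l = l * k)
    (hlx : l * x = x * l) : ⁅x * k, y * l⁆ = ⁅x, y⁆ := by
  have e : x * k * (y * l) = x * y * x⁻¹ * y⁻¹ * (y * l) * (x * k) := by
    calc x * k * (y * l) = x * (k * y) * l := by group
      _ = x * (y * k) * l := by rw [hky]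
      _ = x * y * (k * l) := by group
      _ = x * y * (l * k) := by rw [hkl]
      _ = x * y * x⁻¹ * (x * l) * k := by group
      _ = x * y * x⁻¹ * (l * x) * k := by rw [hlx]
      _ = x * y * x⁻¹ * y⁻¹ * (y * l) * (x * k) := by group
  rw [commutatorElement_def, commutatorElement_def, e]
  group

theorem finB {p : ℕ} [Fact p.Prime] {G : Type u} [Group G] [Finite G] (hyp : Hyp p G) (P : Sylow p G)
    (hPne : (P : Subgroup G) ≠ ⊥)
    (hF2 : (P : Subgroup G) ≤ ⁅normalizer ((P : Subgroup G) : Set G), normalizer ((P : Subgroup G) : Set G)⁆)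
    (hK : ∀ K : Subgroup G, K ≤ normalizer ((P : Subgroup G) : Set G) → (Nat.card ↥K).Coprime p →
      Nat.card ↥K = (P : Subgroup G).relIndex (normalizer ((P : Subgroup G) : Set G)) →
      K ≤ centralizer ((P : Subgroup G) : Set G)) : False := by
  classical
  have hp : p.Prime := Fact.out
  set N := normalizer ((P : Subgroup G) : Set G) with hN
  have hPN : (P : Subgroup G) ≤ N := le_normalizer
  haveI hnorm : ((P : Subgroup G).subgroupOf N).Normal := Subgroup.normal_in_normalizer
  have h1 : (P : Subgroup G).relIndex N * N.index = (P : Subgroup G).index :=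
    Subgroup.relIndex_mul_index hPN
  have hnd : ¬ p ∣ (P : Subgroup G).relIndex N := fun h =>
    P.not_dvd_index (h1 ▸ Dvd.dvd.mul_right h _)
  have hcP : Nat.card ((P : Subgroup G).subgroupOf N) = Nat.card (P : Subgroup G) :=
    Nat.card_congr (Subgroup.subgroupOfEquivOfLe hPN).toEquiv
  have hcop : Nat.Coprime (Nat.card ((P : Subgroup G).subgroupOf N))
      ((P : Subgroup G).subgroupOf N).index := by
    rw [hcP, P.card_eq_multiplicity]
    exact Nat.Coprime.pow_left _ ((Nat.Prime.coprime_iff_not_dvd hp).2 hnd)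
  obtain ⟨K', hK'⟩ := Subgroup.exists_right_complement'_of_coprime hcop
  have hcK' : Nat.card K' = (P : Subgroup G).relIndex N := (hK'.symm.index_eq_card).symm
  have hcK : Nat.card (K'.map N.subtype) = (P : Subgroup G).relIndex N := by
    rw [Subgroup.card_map_of_injective N.subtype_injective, hcK']
  have hKN : K'.map N.subtype ≤ N := Subgroup.map_subtype_le K'
  have hKcop : (Nat.card (K'.map N.subtype)).Coprime p := by
    rw [hcK]
    exact ((Nat.Prime.coprime_iff_not_dvd hp).2 hnd).symm
  have hcent := hK _ hKN hKcop hcK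
  have hcomm := (hyp _ hKcop).1
  have hdec : ∀ n ∈ N, ∃ x ∈ (P : Subgroup G), ∃ k ∈ K'.map N.subtype, n = x * k := by
    intro n hn
    obtain ⟨⟨x, k⟩, hxk⟩ := hK'.2 ⟨n, hn⟩
    refine ⟨((x : N) : G), x.2, ((k : N) : G), Subgroup.mem_map_of_mem _ k.2, ?_⟩
    have := congrArg Subtype.val hxk
    simpa using this.symm
  have hle : ⁅N, N⁆ ≤ ⁅(P : Subgroup G), (P : Subgroup G)⁆ := by
    rw [Subgroup.commutator_le]
    intro g₁ h₁ g₂ h₂
    obtain ⟨x, hx, k, hk, rfl⟩ := hdec g₁ h₁
    obtain ⟨y, hy, l, hl, rfl⟩ := hdec g₂ h₂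
    have hky : k * y = y * k := ((Subgroup.mem_centralizer_iff.1 (hcent hk)) y hy).symm
    have hlx : l * x = x * l := ((Subgroup.mem_centralizer_iff.1 (hcent hl)) x hx).symm
    have hkl : k * l = l * k := by
      have := hcomm.is_comm.comm ⟨k, hk⟩ ⟨l, hl⟩
      exact congrArg Subtype.val this
    rw [finB_comm hky hkl hlx]
    exact Subgroup.commutator_mem_commutator hx hy
  have hPP : (P : Subgroup G) ≤ ⁅(P : Subgroup G), (P : Subgroup G)⁆ := hF2.trans hle
  haveI : Nontrivial (P : Subgroup G) := (Subgroup.nontrivial_iff_ne_bot _).2 hPne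
  haveI : Group.IsNilpotent (P : Subgroup G) := P.2.isNilpotent
  have hlt := Group.IsSolvable.commutator_lt_top_of_nontrivial (P : Subgroup G)
  apply hlt.ne
  rw [eq_top_iff]
  intro x _
  have hx := hPP x.2
  rw [← Subgroup.map_subtype_commutator] at hx
  obtain ⟨y, hy, hyx⟩ := hx
  have : y = x := Subtype.ext hyx
  rwa [← this]

end Cfsg.Agent.Lib.Helper60.PA
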