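import Mathlib
import Cfsg.Prelude.Def_EvenType
import Cfsg.Agent.Lib.Helper2.Fusion
import Cfsg.Agent.Lib.Helper60.PA.Defs

set_option autoImplicit false

namespace Cfsg.Agent.Lib.Helper60.PA

open Subgroup
open scoped commutatorElement

universe u

theorem foc {p : ℕ} [Fact p.Prime] {G : Type u} [Group G] [Finite G] (hperf : commutator G = ⊤)
    (P : Sylow p G) (L : Subgroup G) (hPL : (P : Subgroup G) ≤ L)
    (hctl : ∀ A : Set G, A ⊆ (P : Subgroup G) → Cfsg.ControlsStrongFusionOf L (P : Subgroup G) A) :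
    (P : Subgroup G) ≤ ⁅L, L⁆ := by
  have h := Cfsg.Agent.Lib.Helper2.commutator_inf_eq_of_controls_fusion P L hPL (by
    intro x u hx hux
    obtain ⟨-, h2⟩ := hctl {x} (by simpa using hx)
    obtain ⟨n, hn, h3⟩ := h2 u (by simpa using hux)
    exact ⟨n, hn, (h3 x rfl).symm⟩)
  rw [hperf, top_inf_eq] at h
  intro x hx
  have : x ∈ ⁅L, L⁆ ⊓ (P : Subgroup G) := h ▸ hx
  exact this.1

end Cfsg.Agent.Lib.Helper60.PA
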