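import Mathlib
import Cfsg.Agent.Lib.Helper60.PA.Defs
import Cfsg.Agent.Lib.Lead.Hall

set_option autoImplicit false
set_option linter.style.haveILetI false

namespace Cfsg.Agent.Lib.Helper60.PA

open Subgroup
open scoped commutatorElement

universe u

/-- a maximal `p'`-subgroup `H` of `G` inside a solvable subgroup `L` is a Hall `p'`-subgroup
of `L`. -/
theorem hall_card {p : ℕ} [Fact p.Prime] {G : Type u} [Group G] [Finite G]
    {H L : Subgroup G} (hH : MaxPIn p H ⊤) (hHL : H ≤ L) (hL : Group.IsSolvable ↥L) :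
    Nat.card ↥L = Nat.card ↥H * p ^ (Nat.card ↥L).factorization p := by
  have hp : p.Prime := Fact.out
  have hL0 : Nat.card ↥L ≠ 0 := Nat.card_pos.ne'
  have hmul : Nat.card ↥L = (Nat.card ↥L / p ^ (Nat.card ↥L).factorization p) *
      p ^ (Nat.card ↥L).factorization p := by
    rw [mul_comm]
    exact (Nat.ordProj_mul_ordCompl_eq_self _ p).symm
  have hcop : (Nat.card ↥L / p ^ (Nat.card ↥L).factorization p).Coprime p :=
    (Nat.coprime_ordCompl hp hL0).symm
  obtain ⟨H1, hH1, hle⟩ := Cfsg.Agent.Lib.Lead.hall_dom (G := ↥L) _ _ hmul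
    (Nat.Coprime.pow_right _ hcop) (H.subgroupOf L) (by
      rw [Nat.card_congr (Subgroup.subgroupOfEquivOfLe hHL).toEquiv]
      exact Nat.Coprime.pow_right _ hH.2.1)
  have hc1 : Nat.card ↥(H1.map L.subtype) = Nat.card ↥L / p ^ (Nat.card ↥L).factorization p := by
    rw [Subgroup.card_map_of_injective L.subtype_injective, hH1]
  have hle' : H ≤ H1.map L.subtype := by
    rw [← Subgroup.map_subgroupOf_eq_of_le hHL]
    exact Subgroup.map_mono hle
  have heq := hH.2.2 (H1.map L.subtype) hle' le_top (by rw [hc1]; exact hcop)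
  rw [heq] at hc1
  rw [hc1]
  exact hmul

theorem hall {p : ℕ} [Fact p.Prime] {G : Type u} [Group G] [Finite G] (h : MC p G)
    (hC : ∀ e : G, e ≠ 1 → centralizer ({e} : Set G) ≠ ⊤)
    {H : Subgroup G} (hH : MaxPIn p H ⊤) (q : ℕ) [Fact q.Prime] (hq : q ∣ Nat.card ↥H) :
    ∃ Q : Sylow q G, (Q : Subgroup G) ≤ H := by
  have hp : p.Prime := Fact.out
  have hqp' : q.Prime := Fact.out
  have hqp : q ≠ p := by
    rintro rfl
    have := Nat.Coprime.eq_one_of_dvd hH.2.1.symm hq
    exact hp.one_lt.ne' this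
  have hcopqp : ∀ k : ℕ, (q ^ k).Coprime p := fun k =>
    Nat.Coprime.pow_left k ((Nat.coprime_primes hqp' hp).2 hqp)
  obtain ⟨e0, he0⟩ := exists_prime_orderOf_dvd_card' q hq
  have heo : orderOf (e0 : G) = q := by rw [Subgroup.orderOf_coe, he0]
  have he1 : (e0 : G) ≠ 1 := by
    intro h1
    rw [h1, orderOf_one] at heo
    exact hqp'.one_lt.ne heo
  have hz : IsPGroup q (zpowers (e0 : G)) := by
    apply IsPGroup.of_card (n := 1)
    rw [Nat.card_zpowers, heo, pow_one]
  obtain ⟨Q0, hQ0⟩ := hz.exists_le_sylow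
  have heQ : (e0 : G) ∈ (Q0 : Subgroup G) := hQ0 (mem_zpowers _)
  have hQcard : Nat.card ↥(Q0 : Subgroup G) = q ^ (Nat.card G).factorization q :=
    Q0.card_eq_multiplicity
  have hQcomm := (h.hyp (Q0 : Subgroup G) (by rw [hQcard]; exact hcopqp _)).1
  have hHcomm := (h.hyp H hH.2.1).1
  obtain ⟨L, hLdef⟩ : ∃ L : Subgroup G, L = centralizer ({(e0 : G)} : Set G) := ⟨_, rfl⟩
  have hLne : L ≠ ⊤ := by rw [hLdef]; exact hC _ he1
  have hQL : (Q0 : Subgroup G) ≤ L := by
    intro x hx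
    rw [hLdef, mem_centralizer_iff]
    intro y hy
    rw [Set.mem_singleton_iff] at hy
    subst hy
    exact congrArg Subtype.val (hQcomm.is_comm.comm ⟨(e0 : G), heQ⟩ ⟨x, hx⟩)
  have hHL : H ≤ L := by
    intro x hx
    rw [hLdef, mem_centralizer_iff]
    intro y hy
    rw [Set.mem_singleton_iff] at hy
    subst hy
    exact congrArg Subtype.val (hHcomm.is_comm.comm e0 ⟨x, hx⟩)
  have hcardL := hall_card hH hHL (h.proper L hLne)
  have hdvd : q ^ (Nat.card G).factorization q ∣ Nat.card ↥H := by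
    have h1 : Nat.card ↥(Q0 : Subgroup G) ∣ Nat.card ↥L := Subgroup.card_dvd_of_le hQL
    rw [hQcard, hcardL] at h1
    exact Nat.Coprime.dvd_of_dvd_mul_right (Nat.Coprime.pow_right _ (hcopqp _)) h1
  obtain ⟨K, hK⟩ := Sylow.exists_subgroup_card_pow_prime q hdvd
  have hKc : Nat.card ↥(K.map H.subtype) = q ^ (Nat.card G).factorization q := by
    rw [Subgroup.card_map_of_injective H.subtype_injective, hK]
  refine ⟨Sylow.ofCard (K.map H.subtype) hKc, ?_⟩
  rw [Sylow.coe_ofCard]
  exact Subgroup.map_subtype_le K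

end Cfsg.Agent.Lib.Helper60.PA
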