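import Mathlib
import Cfsg.Agent.Lib.Helper60.PA.Defs
import Cfsg.Agent.Lib.Helper60.PA.HALL
import Cfsg.Agent.Lib.Lead.Hall

set_option autoImplicit false
set_option linter.style.haveILetI false

namespace Cfsg.Agent.Lib.Helper60.PA

open Subgroup Pointwise
open scoped commutatorElement

universe u

theorem hfix {p : ℕ} [Fact p.Prime] {G : Type u} [Group G] [Finite G] (h : MC p G)
    (hC : ∀ e : G, e ≠ 1 → centralizer ({e} : Set G) ≠ ⊤)
    {H : Subgroup G} (hH : MaxPIn p H ⊤)
    (hhall : ∀ (q : ℕ) [Fact q.Prime], q ∣ Nat.card ↥H → ∃ Q : Sylow q G, (Q : Subgroup G) ≤ H)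
    (hqfix : ∀ (q : ℕ) [Fact q.Prime], q ≠ p → ∀ Q : Sylow q G,
      NoFix (Q : Subgroup G) (normalizer ((Q : Subgroup G) : Set G))) :
    NoFix H (normalizer (H : Set G)) := by
  have hp : p.Prime := Fact.out
  intro c hcH hcfix
  by_contra hc1
  have hHcomm := (h.hyp H hH.2.1).1
  have hcommH : ∀ x ∈ H, ∀ y ∈ H, x * y = y * x := fun x hx y hy =>
    congrArg Subtype.val (hHcomm.is_comm.comm ⟨x, hx⟩ ⟨y, hy⟩)
  -- a power of prime order
  have ho1 : orderOf c ≠ 1 := fun h1 => hc1 (orderOf_eq_one_iff.1 h1)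
  obtain ⟨q, hq, hqd⟩ := Nat.exists_prime_and_dvd ho1
  haveI : Fact q.Prime := ⟨hq⟩
  obtain ⟨c', hc'def⟩ : ∃ c' : G, c' = c ^ (orderOf c / q) := ⟨_, rfl⟩
  have hc'o : orderOf c' = q := by
    rw [hc'def]
    exact orderOf_pow_orderOf_div (orderOf_pos c).ne' hqd
  have hc'H : c' ∈ H := by rw [hc'def]; exact pow_mem hcH _
  have hc'fix : ∀ g ∈ normalizer (H : Set G), g * c' = c' * g := by
    intro g hg
    rw [hc'def]
    exact (Commute.pow_right (show Commute g c from hcfix g hg) _)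
  have hc'1 : c' ≠ 1 := by
    intro h1
    rw [h1, orderOf_one] at hc'o
    exact hq.one_lt.ne hc'o
  have hqH : q ∣ Nat.card ↥H := by
    have h1 := orderOf_dvd_natCard (⟨c', hc'H⟩ : H)
    rwa [Subgroup.orderOf_mk, hc'o] at h1
  have hqp : q ≠ p := by
    rintro rfl
    have := Nat.Coprime.eq_one_of_dvd hH.2.1.symm hqH
    exact hp.one_lt.ne' this
  obtain ⟨Q, hQH⟩ := hhall q hqH
  -- `c'` lies in `Q`
  have hc'Q : c' ∈ (Q : Subgroup G) := by
    have hz : IsPGroup q (zpowers c') := by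
      apply IsPGroup.of_card (n := 1)
      rw [Nat.card_zpowers, hc'o, pow_one]
    have hn : (Q : Subgroup G) ≤ normalizer ((zpowers c' : Subgroup G) : Set G) := by
      intro x hx
      rw [mem_normalizer_iff]
      intro y
      have hxy : ∀ y ∈ zpowers c', x * y * x⁻¹ = y := by
        intro y hy
        have hyH : y ∈ H := (zpowers_le.2 hc'H) hy
        rw [hcommH x (hQH hx) y hyH, mul_assoc, mul_inv_cancel, mul_one]
      constructor
      · intro hy
        rw [hxy y hy]; exact hy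
      · intro hy
        have h2 := hxy _ hy
        have h3 : x * y * x⁻¹ = y := by
          have h4 : x * (x * y * x⁻¹) * x⁻¹ = x * y * x⁻¹ := h2
          have h5 : x * y * x⁻¹ = x⁻¹ * (x * (x * y * x⁻¹) * x⁻¹) * x := by group
          rw [h4] at h5
          have h6 : x⁻¹ * (x * y * x⁻¹) * x = y := by group
          rw [h6] at h5
          exact h5
        rw [← h3]; exact hy
    have hsup := IsPGroup.to_sup_of_normal_right' Q.2 hz hn
    have heq := Q.3 hsup le_sup_left
    have : c' ∈ (Q : Subgroup G) ⊔ zpowers c' := (le_sup_right : zpowers c' ≤ _) (mem_zpowers c')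
    rw [heq] at this
    exact this
  -- the centralizer of `Q`
  obtain ⟨L, hLdef⟩ : ∃ L : Subgroup G, L = centralizer ((Q : Subgroup G) : Set G) := ⟨_, rfl⟩
  have hLne : L ≠ ⊤ := by
    intro htop
    apply hC c' hc'1
    rw [eq_top_iff, ← htop, hLdef]
    exact centralizer_le (by
      intro y hy
      rw [Set.mem_singleton_iff] at hy
      subst hy
      exact hc'Q)
  have hHL : H ≤ L := by
    intro x hx
    rw [hLdef, mem_centralizer_iff]
    intro y hy
    exact hcommH y (hQH hy) x hx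
  have hLs := h.proper L hLne
  have hcL := hall_card hH hHL hLs
  apply hc'1
  apply hqfix q hqp Q c' hc'Q
  intro g hg
  have hgQ : ∀ y ∈ (Q : Subgroup G), g⁻¹ * y * g ∈ (Q : Subgroup G) := by
    intro y hy
    have h1 := (mem_normalizer_iff.1 (inv_mem hg) y).1 hy
    rwa [inv_inv] at h1
  have hgL : MulAut.conj g • H ≤ L := by
    intro x hx
    rw [Cfsg.Agent.Lib.Lead.mem_conj_smul] at hx
    rw [hLdef, mem_centralizer_iff]
    intro y hy
    have h1 := hcommH _ (hQH (hgQ y hy)) _ hx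
    have h2 : y * x = g * ((g⁻¹ * y * g) * (g⁻¹ * x * g)) * g⁻¹ := by group
    have h3 : x * y = g * ((g⁻¹ * x * g) * (g⁻¹ * y * g)) * g⁻¹ := by group
    rw [h2, h3, h1]
  obtain ⟨l, hl⟩ := Cfsg.Agent.Lib.Lead.hall_conj (G := L) (Nat.card H) _ hcL
    (Nat.Coprime.pow_right _ hH.2.1)
    ((MulAut.conj g • H).subgroupOf L) (H.subgroupOf L)
    (by rw [Nat.card_congr (Subgroup.subgroupOfEquivOfLe hgL).toEquiv,
      Cfsg.Agent.Lib.Lead.card_conj_smul])
    (Nat.card_congr (Subgroup.subgroupOfEquivOfLe hHL).toEquiv)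
  have h2 : MulAut.conj ((l : G) * g) • H = H := by
    rw [map_mul, mul_smul]
    have h3 := congrArg (Subgroup.map L.subtype) hl
    rw [Cfsg.Agent.Lib.Lead.map_conj_smul, Subgroup.map_subgroupOf_eq_of_le hgL,
      Subgroup.map_subgroupOf_eq_of_le hHL] at h3
    exact h3
  have h4 : (l : G) * g ∈ Subgroup.normalizer (H : Set G) := by
    rw [Subgroup.mem_normalizer_iff'']
    intro x
    rw [← Cfsg.Agent.Lib.Lead.mem_conj_smul, h2]
  have h5 := hc'fix _ h4
  have h6 : c' * (l : G) = (l : G) * c' := by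
    have hlL : (l : G) ∈ centralizer ((Q : Subgroup G) : Set G) := hLdef ▸ l.2
    exact (mem_centralizer_iff.1 hlL) c' hc'Q
  have h7 : (l : G) * (g * c') = (l : G) * (c' * g) := by
    rw [← mul_assoc, h5, ← mul_assoc, h6, mul_assoc]
  exact mul_left_cancel h7

end Cfsg.Agent.Lib.Helper60.PA
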