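import Mathlib
import Cfsg.Agent.Lib.Helper60.PA.Defs

set_option autoImplicit false
set_option linter.style.haveILetI false

namespace Cfsg.Agent.Lib.Helper60.PA

open Subgroup
open scoped commutatorElement

universe u

/-- a surjection onto a `p'`-group is already surjective on some `p'`-subgroup. -/
theorem hquo_top {p : ℕ} [Fact p.Prime] {X Y : Type*} [Group X] [Finite X] [Group Y] (g : X →* Y)
    (hg : Function.Surjective g) (hY : (Nat.card Y).Coprime p) :
    ∃ C : Subgroup X, (Nat.card ↥C).Coprime p ∧ C.map g = ⊤ := by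
  classical
  haveI : Finite Y := Finite.of_surjective g hg
  obtain ⟨P⟩ : Nonempty (Sylow p X) := inferInstance
  have hPK : (P : Subgroup X) ≤ g.ker := by
    intro x hx
    rw [MonoidHom.mem_ker]
    obtain ⟨k, hk⟩ := (IsPGroup.iff_orderOf.1 P.2) ⟨x, hx⟩
    have hk' : orderOf x = p ^ k := by rw [← hk, Subgroup.orderOf_mk]
    have h1 : orderOf (g x) ∣ p ^ k := hk' ▸ orderOf_map_dvd g x
    have h2 : orderOf (g x) ∣ Nat.card Y := orderOf_dvd_natCard _
    have h3 : (Nat.card Y).Coprime (p ^ k) := Nat.Coprime.pow_right k hY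
    have h4 : orderOf (g x) = 1 := Nat.eq_one_of_dvd_coprimes h3 h2 h1
    exact orderOf_eq_one_iff.1 h4
  have hfr := Sylow.normalizer_sup_eq_top' P hPK
  obtain ⟨M, hM⟩ : ∃ M : Subgroup X, M = normalizer ((P : Subgroup X) : Set X) := ⟨_, rfl⟩
  have hfr' : M ⊔ g.ker = ⊤ := by rw [hM]; exact hfr
  have hPM : (P : Subgroup X) ≤ M := by rw [hM]; exact le_normalizer
  haveI hP1n : ((P : Subgroup X).subgroupOf M).Normal := by
    rw [hM]; exact normal_in_normalizer
  have hcard1 : Nat.card ((P : Subgroup X).subgroupOf M) = Nat.card (P : Subgroup X) :=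
    Nat.card_congr (Subgroup.subgroupOfEquivOfLe hPM).toEquiv
  have hidx : ¬ p ∣ ((P : Subgroup X).subgroupOf M).index := by
    intro hd
    have h1 : (P : Subgroup X).relIndex M ∣ (P : Subgroup X).index :=
      Subgroup.relIndex_dvd_index_of_le hPM
    exact P.not_dvd_index (hd.trans h1)
  have hidx' : (((P : Subgroup X).subgroupOf M).index).Coprime p :=
    ((Nat.Prime.coprime_iff_not_dvd Fact.out).2 hidx).symm
  have hcop : Nat.Coprime (Nat.card ((P : Subgroup X).subgroupOf M))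
      ((P : Subgroup X).subgroupOf M).index := by
    obtain ⟨k, hk⟩ := (IsPGroup.iff_card.1 P.2)
    rw [hcard1, hk]
    exact (Nat.Coprime.pow_right k hidx').symm
  obtain ⟨C0, hC0⟩ := Subgroup.exists_right_complement'_of_coprime hcop
  refine ⟨C0.map M.subtype, ?_, ?_⟩
  · rw [Subgroup.card_map_of_injective M.subtype_injective, ← hC0.symm.index_eq_card]
    exact hidx'
  · rw [eq_top_iff]
    intro y _
    obtain ⟨x, rfl⟩ := hg y
    have hx : x ∈ M ⊔ g.ker := by rw [hfr']; trivial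
    rw [Subgroup.mem_sup_of_normal_right] at hx
    obtain ⟨m, hm, k, hk, rfl⟩ := hx
    have hm' : (⟨m, hm⟩ : M) ∈ ((P : Subgroup X).subgroupOf M) ⊔ C0 := by
      rw [hC0.sup_eq_top]; trivial
    rw [Subgroup.mem_sup_of_normal_left] at hm'
    obtain ⟨a, ha, c, hc, hac⟩ := hm'
    refine ⟨(c : X), ⟨c, hc, rfl⟩, ?_⟩
    have h1 : m = (a : X) * (c : X) := by
      have := congrArg Subtype.val hac
      exact this.symm
    have h2 : g (a : X) = 1 := hPK (Subgroup.mem_subgroupOf.1 ha)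
    have h3 : g k = 1 := hk
    rw [map_mul, h3, mul_one, h1, map_mul, h2, one_mul]

theorem hquo_lift {p : ℕ} [Fact p.Prime] {G G' : Type*} [Group G] [Finite G] [Group G']
    (f : G →* G') (hf : Function.Surjective f) (H' : Subgroup G') (hH' : (Nat.card ↥H').Coprime p) :
    ∃ C : Subgroup G, (Nat.card ↥C).Coprime p ∧ C.map f = H' := by
  obtain ⟨C, hC, hCt⟩ := hquo_top (f.subgroupComap H')
    (MonoidHom.subgroupComap_surjective_of_surjective f H' hf) hH'
  refine ⟨C.map (H'.comap f).subtype, ?_, ?_⟩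
  · rw [Subgroup.card_map_of_injective (Subgroup.subtype_injective _)]
    exact hC
  · ext y
    constructor
    · rintro ⟨_, ⟨c, _, rfl⟩, rfl⟩
      exact c.2
    · intro hy
      have h1 : (⟨y, hy⟩ : H') ∈ C.map (f.subgroupComap H') := by rw [hCt]; trivial
      obtain ⟨c, hc, hcy⟩ := h1
      exact ⟨(c : G), ⟨c, hc, rfl⟩, congrArg Subtype.val hcy⟩

theorem Hyp.of_surjective {p : ℕ} [Fact p.Prime] {G G' : Type*} [Group G] [Finite G] [Group G']
    (h : Hyp p G) (f : G →* G') (hf : Function.Surjective f) : Hyp p G' := by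
  intro H' hH'
  obtain ⟨C, hC, hCH⟩ := hquo_lift f hf H' hH'
  obtain ⟨h1, h2⟩ := h C hC
  constructor
  · refine ⟨⟨fun a b => ?_⟩⟩
    obtain ⟨a', ha', haa⟩ : (a : G') ∈ C.map f := hCH ▸ a.2
    obtain ⟨b', hb', hbb⟩ : (b : G') ∈ C.map f := hCH ▸ b.2
    apply Subtype.ext
    change (a : G') * b = b * a
    rw [← haa, ← hbb, ← map_mul, ← map_mul]
    congr 1
    exact congrArg Subtype.val (h1.is_comm.comm ⟨a', ha'⟩ ⟨b', hb'⟩)
  · intro x hx
    obtain ⟨x', hx', rfl⟩ : x ∈ C.map f := hCH ▸ hx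
    rw [← map_pow, h2 x' hx', map_one]

end Cfsg.Agent.Lib.Helper60.PA
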