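import Mathlib
import Cfsg.Agent.Lib.Helper60.PA.Defs

set_option autoImplicit false

namespace Cfsg.Agent.Lib.Helper60.PA

open Subgroup
open scoped commutatorElement

universe u

theorem modl {p : ℕ} [Fact p.Prime] {G : Type u} [Group G] [Finite G] (V N : Subgroup G)
    (hNV : N ≤ normalizer (V : Set G))
    (hp' : ∀ g ∈ N, (orderOf g).Coprime p → g ∈ centralizer (V : Set G))
    (hfix : NoFix V N) : Nat.card ↥V ≡ 1 [MOD p] := by
  classical
  letI act : MulAction N V :=
    { smul := fun g v => ⟨(g : G) * v * (g : G)⁻¹, ((mem_normalizer_iff.1 (hNV g.2)) v).1 v.2⟩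
      one_smul := fun v => by
        apply Subtype.ext
        show ((1 : N) : G) * v * ((1 : N) : G)⁻¹ = v
        simp
      mul_smul := fun g h v => by
        apply Subtype.ext
        show ((g * h : N) : G) * v * ((g * h : N) : G)⁻¹ = (g : G) * ((h : G) * v * (h : G)⁻¹) * (g : G)⁻¹
        simp [mul_assoc] }
  have hsmul : ∀ (g : N) (v : V), ((g • v : V) : G) = g * v * (g : G)⁻¹ := fun _ _ => rfl
  let φ := MulAction.toPermHom N V
  have hR : IsPGroup p φ.range := by
    rintro ⟨_, g, rfl⟩
    obtain ⟨k, m, hm, hkm⟩ := Nat.exists_eq_pow_mul_and_not_dvd (orderOf_pos (g : G)).ne' p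
      (Fact.out : p.Prime).ne_one
    refine ⟨k, ?_⟩
    apply Subtype.ext
    show (φ g) ^ (p ^ k) = 1
    rw [← map_pow]
    ext v
    have ho : orderOf ((g : G) ^ (p ^ k)) = m := by
      rw [orderOf_pow_of_dvd (pow_ne_zero _ (Fact.out : p.Prime).ne_zero) ⟨m, hkm⟩, hkm]
      exact Nat.mul_div_cancel_left _ (pow_pos (Fact.out : p.Prime).pos _)
    have h1 : ((g : G) ^ (p ^ k)) ∈ centralizer (V : Set G) :=
      hp' _ (N.pow_mem g.2 _) (by
        rw [ho]
        exact ((Nat.Prime.coprime_iff_not_dvd (Fact.out : p.Prime)).2 hm).symm)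
    have h2 := mem_centralizer_iff.1 h1 (v : G) v.2
    show (((g ^ (p ^ k) : N) • v : V) : G) = v
    rw [hsmul, Subgroup.coe_pow, ← h2]
    simp
  have h := hR.card_modEq_card_fixedPoints V
  have hfp : MulAction.fixedPoints φ.range V = {1} := by
    ext c
    simp only [MulAction.mem_fixedPoints, Set.mem_singleton_iff]
    constructor
    · intro hc
      apply Subtype.ext
      apply hfix (c : G) c.2
      intro g hg
      have h3 := hc ⟨φ ⟨g, hg⟩, ⟨g, hg⟩, rfl⟩
      have h4 : (((⟨g, hg⟩ : N) • c : V) : G) = c := congrArg Subtype.val h3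
      rw [hsmul] at h4
      calc g * c = g * c * g⁻¹ * g := by group
        _ = c * g := by rw [h4]
    · rintro rfl
      rintro ⟨_, g, rfl⟩
      apply Subtype.ext
      show (((g : N) • (1 : V) : V) : G) = 1
      rw [hsmul]
      simp
  rw [hfp] at h
  simpa using h

end Cfsg.Agent.Lib.Helper60.PA
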