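import Mathlib
import Cfsg.Prelude.Def_LocalEven
import Cfsg.Prelude.Def_PLocal
import Cfsg.Prelude.Def_EvenType
import Cfsg.Agent.Lib.Helper60.PA.Defs

set_option autoImplicit false

namespace Cfsg.Agent.Lib.Helper60.PA

open Subgroup
open scoped commutatorElement

universe u

theorem npab {p : ℕ} [Fact p.Prime] {G : Type u} [Group G] [Finite G] (hyp : Hyp p G)
    (hquo : ∀ (G : Type u) [Group G] [Finite G] (N : Subgroup G) [N.Normal], Hyp p G → Hyp p (G ⧸ N))
    (P : Sylow p G) : ∀ n ∈ normalizer ((P : Subgroup G) : Set G), ∀ m ∈ normalizer ((P : Subgroup G) : Set G),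
      ⁅n, m⁆ ∈ (P : Subgroup G) := by
  intro n hn m hm
  have h1 : Hyp p (↥(normalizer ((P : Subgroup G) : Set G)) ⧸
      (P : Subgroup G).subgroupOf (normalizer ((P : Subgroup G) : Set G))) :=
    hquo _ _ (hyp.subgroup _)
  have hcop : (Nat.card (↥(normalizer ((P : Subgroup G) : Set G)) ⧸
      (P : Subgroup G).subgroupOf (normalizer ((P : Subgroup G) : Set G)))).Coprime p := by
    rw [← Subgroup.index_eq_card]
    have h2 : (P : Subgroup G).relIndex (normalizer ((P : Subgroup G) : Set G)) ∣ (P : Subgroup G).index :=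
      Dvd.intro _ (Subgroup.relIndex_mul_index le_normalizer)
    have h3 : ¬ p ∣ (P : Subgroup G).index := P.not_dvd_index
    have h4 : ¬ p ∣ (P : Subgroup G).relIndex (normalizer ((P : Subgroup G) : Set G)) :=
      fun h => h3 (h.trans h2)
    exact ((Nat.Prime.coprime_iff_not_dvd Fact.out).2 h4).symm
  obtain ⟨hc, -⟩ := h1 ⊤ (by rw [Subgroup.card_top]; exact hcop)
  have h5 := hc.is_comm.comm
    ⟨QuotientGroup.mk (⟨n, hn⟩ : ↥(normalizer ((P : Subgroup G) : Set G))), Subgroup.mem_top _⟩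
    ⟨QuotientGroup.mk (⟨m, hm⟩ : ↥(normalizer ((P : Subgroup G) : Set G))), Subgroup.mem_top _⟩
  have h6 : (QuotientGroup.mk (⟨n, hn⟩ : ↥(normalizer ((P : Subgroup G) : Set G))) :
      ↥(normalizer ((P : Subgroup G) : Set G)) ⧸
        (P : Subgroup G).subgroupOf (normalizer ((P : Subgroup G) : Set G))) *
      QuotientGroup.mk (⟨m, hm⟩ : ↥(normalizer ((P : Subgroup G) : Set G))) =
      QuotientGroup.mk (⟨m, hm⟩ : ↥(normalizer ((P : Subgroup G) : Set G))) *
      QuotientGroup.mk (⟨n, hn⟩ : ↥(normalizer ((P : Subgroup G) : Set G))) := congrArg Subtype.val h5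
  have h7 : (QuotientGroup.mk ⁅(⟨n, hn⟩ : ↥(normalizer ((P : Subgroup G) : Set G))), ⟨m, hm⟩⁆ :
      ↥(normalizer ((P : Subgroup G) : Set G)) ⧸
        (P : Subgroup G).subgroupOf (normalizer ((P : Subgroup G) : Set G))) = 1 := by
    rw [commutatorElement_def, QuotientGroup.mk_mul, QuotientGroup.mk_mul, QuotientGroup.mk_mul,
      QuotientGroup.mk_inv, QuotientGroup.mk_inv, h6]
    group
  rw [QuotientGroup.eq_one_iff] at h7
  exact h7

end Cfsg.Agent.Lib.Helper60.PA
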