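import Mathlib
import Cfsg.Agent.Lib.Helper60.PA.Defs
import Cfsg.Agent.S0144

set_option autoImplicit false

/-! Ladder PA, rung P23 (helper33): a minimal counterexample has `p > 3` (Burnside `p^a q^b`). -/

namespace Cfsg.Agent.Lib.Helper60.PA

open Subgroup
open scoped commutatorElement

universe u

theorem p23_card (n : ℕ) (hn : n ≠ 0) (h : ∀ q, q.Prime → q ∣ n → q = 2 ∨ q = 3) :
    n = 2 ^ (n.factorization 2) * 3 ^ (n.factorization 3) := by
  conv_lhs => rw [← Nat.prod_factorization_pow_eq_self hn]
  rw [Finsupp.prod_of_support_subset (s := {2, 3}) _ _ _ (by intro i _; simp)]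
  · rw [Finset.prod_pair (by norm_num)]
  · intro q hq
    rw [Nat.support_factorization, Nat.mem_primeFactors] at hq
    rcases h q hq.1 hq.2.1 with rfl | rfl <;> simp

theorem MC.three_lt {p : ℕ} [Fact p.Prime] {G : Type u} [Group G] [Finite G] (h : MC p G) :
    3 < p := by
  by_contra hp
  have hpp : p.Prime := Fact.out
  have hp23 : p = 2 ∨ p = 3 := by
    have := hpp.two_le
    omega
  apply h.nonsolv
  have key : ∀ q, q.Prime → q ∣ Nat.card G → q = 2 ∨ q = 3 := by
    intro q hq hdvd
    by_cases hqp : q = p
    · rw [hqp]; exact hp23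
    · haveI := Fact.mk hq
      obtain ⟨x, hx⟩ := exists_prime_orderOf_dvd_card' (G := G) q hdvd
      have hc : (Nat.card ↥(zpowers x)).Coprime p := by
        rw [Nat.card_zpowers, hx]
        exact (Nat.coprime_primes hq hpp).2 hqp
      have h1 := (h.hyp _ hc).2 x (mem_zpowers x)
      have h2 : q ∣ p - 1 := by
        have := orderOf_dvd_of_pow_eq_one h1
        rwa [hx] at this
      have h3 := hq.two_le
      rcases hp23 with rfl | rfl
      · have := Nat.le_of_dvd (by norm_num) h2
        omega
      · have := Nat.le_of_dvd (by norm_num) h2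
        omega
  exact Cfsg.Agent.S0144.result 2 3 _ _ Nat.prime_two Nat.prime_three
    (p23_card _ Nat.card_pos.ne' key)

end Cfsg.Agent.Lib.Helper60.PA
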