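import Mathlib
import Cfsg.Agent.Lib.Helper60.PA.Defs
import Cfsg.Agent.Lib.Helper12.Card

/-! Ladder PA, rung PNL. -/

set_option autoImplicit false

namespace Cfsg.Agent.Lib.Helper60.PA

open Subgroup
open scoped commutatorElement

universe u

/-- a normal subgroup of `p`-power index which together with a subgroup of the derived group generates
everything is everything. -/
theorem pnl_abs {p : ℕ} [Fact p.Prime] {X : Type*} [Group X] [Finite X] (Y : Subgroup X) [Y.Normal] {k : ℕ}
    (hk : Y.index = p ^ k) (S : Subgroup X) (hS : S ≤ commutator X) (hSY : S ⊔ Y = ⊤) : Y = ⊤ := by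
  have hQ : IsPGroup p (X ⧸ Y) := IsPGroup.of_card (n := k) (by rw [← hk]; rfl)
  have hnil : Group.IsNilpotent (X ⧸ Y) := hQ.isNilpotent
  have hcomm : commutator (X ⧸ Y) = ⊤ := by
    rw [eq_top_iff]
    have h1 : (S ⊔ Y).map (QuotientGroup.mk' Y) = ⊤ := by
      rw [hSY]; exact map_top_of_surjective _ (QuotientGroup.mk'_surjective Y)
    rw [Subgroup.map_sup, QuotientGroup.map_mk'_self, sup_bot_eq] at h1
    rw [← h1]
    refine (map_mono hS).trans ?_
    rw [commutator_def, map_commutator, commutator_def]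
    exact commutator_mono le_top le_top
  by_contra hne
  have hnt : Nontrivial (X ⧸ Y) := by
    rw [← not_subsingleton_iff_nontrivial]
    intro hsub
    apply hne
    rw [← index_eq_one]
    exact Nat.card_eq_one_iff_unique.2 ⟨hsub, ⟨1⟩⟩
  exact (Group.IsSolvable.commutator_lt_top_of_nontrivial (X ⧸ Y)).ne hcomm

theorem pnl {p : ℕ} [Fact p.Prime] {G : Type u} [Group G] [Finite G] (P : Sylow p G) {H L : Subgroup G}
    (hs : StrAt p H L) (hHc : (Nat.card ↥H).Coprime p) (hHL : H ≤ L) (hPL : (P : Subgroup G) ≤ L)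
    (hP' : (P : Subgroup G) ≤ ⁅L, L⁆) : L ≤ normalizer ((P : Subgroup G) : Set G) := by
  obtain ⟨O, hOp, hOL, hLO, hLOH, -, k, hk⟩ := hs
  have hYL : O ⊔ H ≤ L := sup_le hOL hHL
  have hn : ((O ⊔ H).subgroupOf L).Normal := (normal_subgroupOf_iff_le_normalizer hYL).2 hLOH
  have hS : (P : Subgroup G).subgroupOf L ≤ commutator ↥L := by
    intro x hx
    have h1 : (x : G) ∈ ⁅L, L⁆ := hP' hx
    rw [← map_subtype_commutator] at h1
    obtain ⟨y, hy, hyx⟩ := h1
    have : y = x := Subtype.ext hyx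
    rwa [← this]
  have hcop : ((P : Subgroup G).subgroupOf L).index.Coprime ((O ⊔ H).subgroupOf L).index := by
    have h1 : ((P : Subgroup G).subgroupOf L).index ∣ (P : Subgroup G).index := relIndex_dvd_index_of_le hPL
    have h2 : ((O ⊔ H).subgroupOf L).index = p ^ k := hk
    rw [h2]
    apply Nat.Coprime.pow_right
    apply Nat.Coprime.coprime_dvd_left h1
    exact ((Nat.Prime.coprime_iff_not_dvd Fact.out).2 P.not_dvd_index).symm
  have hSY : (P : Subgroup G).subgroupOf L ⊔ (O ⊔ H).subgroupOf L = ⊤ := by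
    rw [← index_eq_one]
    exact Nat.eq_one_of_dvd_coprimes hcop (index_dvd_of_le le_sup_left) (index_dvd_of_le le_sup_right)
  have htop := pnl_abs ((O ⊔ H).subgroupOf L) hk _ hS hSY
  have hLle : L ≤ O ⊔ H := subgroupOf_eq_top.1 htop
  -- `O ≤ P`
  have hOP : O ≤ (P : Subgroup G) := by
    have h1 : IsPGroup p ↥((P : Subgroup G) ⊔ O) := P.2.to_sup_of_normal_right' hOp (hPL.trans hLO)
    have h2 := P.is_maximal' h1 le_sup_left
    rw [← h2]
    exact le_sup_right
  have hcard : Nat.card ↥(P : Subgroup G) ∣ Nat.card ↥O := by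
    have h1 := Cfsg.Agent.Lib.Helper12.card_sup_mul_card_inf' H O (hHL.trans hLO)
    have h2 : Nat.card ↥(P : Subgroup G) ∣ Nat.card ↥H * Nat.card ↥O := by
      rw [← h1, sup_comm]
      exact (card_dvd_of_le (hPL.trans hLle)).mul_right _
    obtain ⟨n, hn⟩ := IsPGroup.iff_card.1 P.2
    refine Nat.Coprime.dvd_of_dvd_mul_left ?_ h2
    rw [hn]
    exact (hHc.pow_right n).symm
  have hEq : O = (P : Subgroup G) :=
    eq_of_le_of_card_ge hOP (Nat.le_of_dvd Nat.card_pos hcard)
  rw [← hEq]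
  exact hLO

end Cfsg.Agent.Lib.Helper60.PA
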