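import Mathlib
import Cfsg.Prelude.Def_LocalEven
import Cfsg.Agent.Lib.Helper14.PStableReduction
import Cfsg.Agent.Lib.Helper14.QuadAbstract
import Cfsg.Agent.Lib.Helper14.SectionNormalizer
import Cfsg.Agent.S0274
import Cfsg.Agent.Lib.Helper60.PA.Defs

set_option autoImplicit false

namespace Cfsg.Agent.Lib.Helper60.PA

open Subgroup
open scoped commutatorElement

universe u

theorem pstable {p : ℕ} [Fact p.Prime] {G : Type u} [Group G] [Finite G] (hp : p ≠ 2)
    (hquo : ∀ (X : Type u) [Group X] [Finite X] (Y : Type) [Group Y] (f : X →* Y),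
      Function.Surjective f → Hyp p X → Hyp p Y)
    (hsl : ¬ Hyp p (Matrix.SpecialLinearGroup (Fin 2) (ZMod p)))
    (h : Hyp p G) : Cfsg.IsNormalizerPStable p G := by
  classical
  have hD : Cfsg.Agent.Lib.Helper14.DicksonLite p :=
    fun F _ _ _ R hR => Cfsg.Agent.S0274.result p hp R hR
  apply Cfsg.Agent.Lib.Helper14.isNormalizerPStable_of_local
    (fun Γ _ => ¬ Cfsg.Involves (Matrix.SpecialLinearGroup (Fin 2) (ZMod p)) Γ)
  · intro Γ _ N _ h h'
    exact h (Cfsg.Agent.Lib.Helper14.involves_of_quotient _ h')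
  · intro Γ _ _ h V _ hV
    exact Cfsg.Agent.Lib.Helper14.isPStableOn_of_not_involves hD V hV h
  · rintro P hP hne ⟨K, R, hn, ⟨e⟩⟩
    apply hsl
    have h2 : Hyp p ↥K := (h.subgroup _).subgroup K
    exact hquo ↥K _ (e.toMonoidHom.comp (QuotientGroup.mk' _))
      (e.surjective.comp (QuotientGroup.mk'_surjective _)) h2

end Cfsg.Agent.Lib.Helper60.PA
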