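import Mathlib
import Cfsg.Agent.Lib.Helper3.AbelianSylowSplit
import Cfsg.Agent.Lib.Helper60.PA.Defs

set_option autoImplicit false

namespace Cfsg.Agent.Lib.Helper60.PA

open Subgroup
open scoped commutatorElement

universe u

theorem qfix {G : Type u} [Group G] [Finite G] (hperf : commutator G = ⊤) {q : ℕ} [Fact q.Prime]
    (Q : Sylow q G) (hQ : IsMulCommutative ↥(Q : Subgroup G)) :
    NoFix (Q : Subgroup G) (normalizer ((Q : Subgroup G) : Set G)) := by
  intro c hc hfix
  obtain ⟨h1, -⟩ := Cfsg.Agent.Lib.Helper3.abelian_sylow_split Q hQ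
  have h2 : (Q : Subgroup G).focalSubgroup = (Q : Subgroup G) := by
    rw [← Subgroup.commutator_inf_eq_focalSubgroup, hperf, top_inf_eq]
  rw [h2] at h1
  have h4 : c ∈ Subgroup.centralizer (Subgroup.normalizer (Q : Set G) : Set G) := by
    rw [Subgroup.mem_centralizer_iff]
    intro g hg
    exact hfix g hg
  have h3 := (Subgroup.mem_inf.2 ⟨hc, Subgroup.mem_inf.2 ⟨hc, h4⟩⟩)
  rw [h1, Subgroup.mem_bot] at h3
  exact h3

end Cfsg.Agent.Lib.Helper60.PA
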