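import Mathlib
import Cfsg.Agent.Lib.Helper60.PA.Defs

/-! Ladder PA (S1936), rung RED: reduction to a minimal counterexample. -/

set_option autoImplicit false

namespace Cfsg.Agent.Lib.Helper60.PA

open Subgroup
open scoped commutatorElement

universe u

theorem reduce (p : ℕ) [Fact p.Prime]
    (hquo : ∀ (G : Type u) [Group G] [Finite G] (N : Subgroup G) [N.Normal], Hyp p G → Hyp p (G ⧸ N))
    (main : ∀ (G : Type u) [Group G] [Finite G], MC p G → False) :
    ∀ (G : Type u) [Group G] [Finite G], Hyp p G → Group.IsSolvable G := by
  have key : ∀ (n : ℕ) (G : Type u) [Group G] [Finite G], Nat.card G = n → Hyp p G →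
      Group.IsSolvable G := by
    intro n
    induction n using Nat.strong_induction_on with
    | _ n ih =>
      intro G _ _ hn hyp
      by_contra hns
      have hprop : ∀ L : Subgroup G, L ≠ ⊤ → Group.IsSolvable ↥L := by
        intro L hL
        refine ih (Nat.card ↥L) ?_ ↥L rfl (hyp.subgroup L)
        rw [← hn]
        by_contra hlt
        exact hL (Subgroup.eq_top_of_le_card L (not_lt.mp hlt))
      have hsimple : IsSimpleGroup G := by
        have : Nontrivial G := by
          by_contra hnt
          rw [not_nontrivial_iff_subsingleton] at hnt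
          exact hns inferInstance
        refine ⟨fun N hN => ?_⟩
        by_contra hcon
        push Not at hcon
        obtain ⟨h1, h2⟩ := hcon
        have := hprop N h2
        have : Group.IsSolvable (G ⧸ N) := by
          refine ih (Nat.card (G ⧸ N)) ?_ (G ⧸ N) rfl (hquo G N hyp)
          rw [← hn, ← Subgroup.index_eq_card, ← Subgroup.card_mul_index N]
          have h3 : 1 < Nat.card ↥N := by
            rw [Subgroup.one_lt_card_iff_ne_bot]; exact h1
          have h4 : 0 < N.index := Nat.pos_of_ne_zero (Subgroup.index_ne_zero_of_finite)
          nlinarith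
        exact hns (Group.isSolvable_of_ker_le_range N.subtype (QuotientGroup.mk' N) (by simp))
      exact main G ⟨hyp, hsimple, hns, hprop⟩
  intro G _ _ hyp
  exact key _ G rfl hyp

end Cfsg.Agent.Lib.Helper60.PA
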