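import Mathlib
import Cfsg.Agent.Lib.Helper60.PA.Defs

set_option autoImplicit false

/-! Ladder PA, rung SL2 (helper33): `SL₂(p)`, `p > 3`, has a non-commutative `p'`-subgroup
(the monomial subgroup). -/

namespace Cfsg.Agent.Lib.Helper60.PA

open Subgroup
open scoped commutatorElement

/-- the monomial subgroup of `SL₂(p)` -/
def sl2Mon (p : ℕ) [Fact p.Prime] : Subgroup (Matrix.SpecialLinearGroup (Fin 2) (ZMod p)) where
  carrier := {g | (g.1 0 1 = 0 ∧ g.1 1 0 = 0) ∨ (g.1 0 0 = 0 ∧ g.1 1 1 = 0)}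
  mul_mem' := by
    rintro a b (⟨h1, h2⟩ | ⟨h1, h2⟩) (⟨h3, h4⟩ | ⟨h3, h4⟩)
    · left
      constructor <;>
        simp [Matrix.SpecialLinearGroup.coe_mul, Matrix.mul_apply, Fin.sum_univ_two, h1, h2, h3, h4]
    · right
      constructor <;>
        simp [Matrix.SpecialLinearGroup.coe_mul, Matrix.mul_apply, Fin.sum_univ_two, h1, h2, h3, h4]
    · right
      constructor <;>
        simp [Matrix.SpecialLinearGroup.coe_mul, Matrix.mul_apply, Fin.sum_univ_two, h1, h2, h3, h4]
    · left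
      constructor <;>
        simp [Matrix.SpecialLinearGroup.coe_mul, Matrix.mul_apply, Fin.sum_univ_two, h1, h2, h3, h4]
  one_mem' := by left; simp
  inv_mem' := by
    rintro a (⟨h1, h2⟩ | ⟨h1, h2⟩)
    · left
      constructor <;>
        simp [Matrix.SpecialLinearGroup.coe_inv, Matrix.adjugate_fin_two, h1, h2]
    · right
      constructor <;>
        simp [Matrix.SpecialLinearGroup.coe_inv, Matrix.adjugate_fin_two, h1, h2]

theorem sl2_pow_eq_one (p : ℕ) [Fact p.Prime] (g : Matrix.SpecialLinearGroup (Fin 2) (ZMod p))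
    (hg : g ∈ sl2Mon p) : g ^ (4 * (p - 1)) = 1 := by
  have hdet : g.1 0 0 * g.1 1 1 - g.1 0 1 * g.1 1 0 = 1 := by
    have := g.2
    rwa [Matrix.det_fin_two] at this
  rcases hg with ⟨h1, h2⟩ | ⟨h1, h2⟩
  · rw [h1, zero_mul, sub_zero] at hdet
    have ha : g.1 0 0 ≠ 0 := fun h => by rw [h, zero_mul] at hdet; exact zero_ne_one hdet
    have hb : g.1 1 1 ≠ 0 := fun h => by rw [h, mul_zero] at hdet; exact zero_ne_one hdet
    have hd : g.1 = Matrix.diagonal ![g.1 0 0, g.1 1 1] := by
      ext i j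
      fin_cases i <;> fin_cases j <;> simp [h1, h2]
    have h3 : g ^ (p - 1) = 1 := by
      apply Subtype.ext
      rw [Matrix.SpecialLinearGroup.coe_pow, hd, Matrix.diagonal_pow]
      rw [Matrix.SpecialLinearGroup.coe_one, ← Matrix.diagonal_one]
      congr 1
      funext i
      fin_cases i
      · simpa using ZMod.pow_card_sub_one_eq_one ha
      · simpa using ZMod.pow_card_sub_one_eq_one hb
    rw [mul_comm, pow_mul, h3, one_pow]
  · rw [h1, zero_mul, zero_sub] at hdet
    have h3 : g ^ 4 = 1 := by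
      have h4 : (g ^ 2).1 = -1 := by
        rw [Matrix.SpecialLinearGroup.coe_pow, pow_two]
        ext i j
        fin_cases i <;> fin_cases j <;>
          simp [Matrix.mul_apply, Fin.sum_univ_two, h1, h2]
        · linear_combination -hdet
        · linear_combination -hdet
      apply Subtype.ext
      have : g ^ 4 = g ^ 2 * g ^ 2 := by rw [← pow_add]
      rw [this, Matrix.SpecialLinearGroup.coe_mul, h4]
      simp
    rw [pow_mul, h3, one_pow]

theorem not_hyp_sl2 (p : ℕ) [Fact p.Prime] (hp : 3 < p) :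
    ¬ Hyp p (Matrix.SpecialLinearGroup (Fin 2) (ZMod p)) := by
  intro h
  have hpp : p.Prime := Fact.out
  have hcop : (Nat.card ↥(sl2Mon p)).Coprime p := by
    rw [Nat.coprime_comm, Nat.Prime.coprime_iff_not_dvd hpp]
    intro hdvd
    obtain ⟨x, hx⟩ := exists_prime_orderOf_dvd_card' (G := ↥(sl2Mon p)) p hdvd
    have h1 : x ^ (4 * (p - 1)) = 1 := Subtype.ext (by simpa using sl2_pow_eq_one p x.1 x.2)
    have h2 : p ∣ 4 * (p - 1) := by
      have := orderOf_dvd_of_pow_eq_one h1
      rwa [hx] at this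
    rcases (Nat.Prime.dvd_mul hpp).1 h2 with h3 | h3
    · have := Nat.le_of_dvd (by norm_num) h3
      interval_cases p
      exact absurd hpp (by norm_num)
    · have := Nat.le_of_dvd (by omega) h3
      omega
  obtain ⟨hc, -⟩ := h _ hcop
  have h2 : (2 : ZMod p) ≠ 0 := by
    intro h0
    have : ((2 : ℕ) : ZMod p) = 0 := by exact_mod_cast h0
    rw [ZMod.natCast_eq_zero_iff] at this
    have := Nat.le_of_dvd (by norm_num) this
    omega
  let d : Matrix.SpecialLinearGroup (Fin 2) (ZMod p) :=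
    ⟨!![2, 0; 0, 2⁻¹], by rw [Matrix.det_fin_two_of]; simp [h2]⟩
  let w : Matrix.SpecialLinearGroup (Fin 2) (ZMod p) :=
    ⟨!![0, 1; -1, 0], by rw [Matrix.det_fin_two_of]; simp⟩
  have hd : d ∈ sl2Mon p := Or.inl ⟨by simp [d], by simp [d]⟩
  have hw : w ∈ sl2Mon p := Or.inr ⟨by simp [w], by simp [w]⟩
  have hcomm := hc.is_comm.comm ⟨d, hd⟩ ⟨w, hw⟩
  have h3 : d * w = w * d := congrArg Subtype.val hcomm
  have h4 : (d.1 * w.1) 0 1 = (w.1 * d.1) 0 1 := by
    rw [← Matrix.SpecialLinearGroup.coe_mul, ← Matrix.SpecialLinearGroup.coe_mul, h3]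
  have h4' : (2 : ZMod p) = 2⁻¹ := by
    simpa [d, w, Matrix.mul_apply, Fin.sum_univ_two] using h4
  have h5 : (3 : ZMod p) = 0 := by
    have : (2 : ZMod p) * 2 = 1 := by
      nth_rewrite 2 [h4']
      exact mul_inv_cancel₀ h2
    linear_combination this
  have : ((3 : ℕ) : ZMod p) = 0 := by exact_mod_cast h5
  rw [ZMod.natCast_eq_zero_iff] at this
  have := Nat.le_of_dvd (by norm_num) this
  omega

end Cfsg.Agent.Lib.Helper60.PA
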