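import Mathlib
import Cfsg.Agent.Lib.Helper60.PA.Defs
import Cfsg.Agent.Lib.Lead.Hall
import Cfsg.Agent.Lib.Helper31.CNSolv
import Cfsg.Agent.S1264

set_option autoImplicit false

namespace Cfsg.Agent.Lib.Helper60.PA

open Subgroup
open scoped commutatorElement

universe u

theorem strA_cent_fitting {X : Type*} [Group X] [Finite X] [Group.IsSolvable X] :
    centralizer (Cfsg.fittingSubgroup X : Set X) ≤ Cfsg.fittingSubgroup X := by
  have := Cfsg.Agent.S1264.result (centralizer (Cfsg.fittingSubgroup X : Set X)) le_rfl le_normalizer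
    inferInstance
  exact this.trans (map_subtype_le _)

theorem strA {p : ℕ} [Fact p.Prime] {X : Type u} [Group X] [Finite X] [Group.IsSolvable X] (hyp : Hyp p X)
    (H : Subgroup X) (hH : MaxPIn p H ⊤) : StrAt p H ⊤ := by
  classical
  have hp : p.Prime := Fact.out
  obtain ⟨-, hHc, hHmax⟩ := hH
  -- H is a Hall subgroup
  obtain ⟨k, m, hm, hXc⟩ := Nat.exists_eq_pow_mul_and_not_dvd (n := Nat.card X) Nat.card_pos.ne' p
    hp.ne_one
  have hmp : m.Coprime (p ^ k) := Nat.Coprime.pow_right k ((Nat.Prime.coprime_iff_not_dvd hp).2 hm).symm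
  obtain ⟨H', hH'c, hHH'⟩ := Cfsg.Agent.Lib.Lead.hall_dom m (p ^ k) (by rw [hXc, mul_comm]) hmp H
    (Nat.Coprime.pow_right k hHc)
  have hH'eq : H' = H := hHmax H' hHH' le_top
    (by rw [hH'c]; exact ((Nat.Prime.coprime_iff_not_dvd hp).2 hm).symm)
  subst hH'eq
  have hidx : H'.index = p ^ k := by
    have h1 := H'.card_mul_index
    rw [hH'c, hXc, mul_comm] at h1
    have hmpos : 0 < m := Nat.pos_of_ne_zero (by rintro rfl; exact hm (dvd_zero _))
    exact Nat.eq_of_mul_eq_mul_right hmpos h1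
  have hcomm := (hyp H' hHc).1
  -- the core
  have hOn : (Cfsg.pCore p X).Normal := Cfsg.Agent.Lib.Helper1.pCore_normal p X
  have hOp : IsPGroup p (Cfsg.pCore p X) := Cfsg.Agent.Lib.Helper1.pCore_isPGroup p X
  set O := Cfsg.pCore p X with hO
  set π := QuotientGroup.mk' O with hπ
  have hπs : Function.Surjective π := QuotientGroup.mk'_surjective O
  have hcore : Cfsg.pCore p (X ⧸ O) = ⊥ := Cfsg.Agent.Lib.Helper31.pCore_quotient_pCore p
  have hFn : (Cfsg.fittingSubgroup (X ⧸ O)).Normal := Cfsg.Agent.Lib.Helper1.fitting_normal _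
  have hFc : (Nat.card (Cfsg.fittingSubgroup (X ⧸ O))).Coprime p :=
    Cfsg.Agent.Lib.Helper31.fitting_card_coprime hp hcore
  have hCF : centralizer (Cfsg.fittingSubgroup (X ⧸ O) : Set (X ⧸ O)) ≤ Cfsg.fittingSubgroup (X ⧸ O) :=
    strA_cent_fitting
  set F := Cfsg.fittingSubgroup (X ⧸ O) with hF
  set Hb := H'.map π with hHb
  have hHbidx : Hb.index ∣ p ^ k := by
    rw [← hidx]
    exact Subgroup.index_map_dvd H' hπs
  have hFHb : F ≤ Hb := by
    apply Cfsg.Agent.Lib.Lead.le_of_normal_of_coprime_index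
    exact Nat.Coprime.coprime_dvd_right hHbidx (Nat.Coprime.pow_right k hFc)
  have hHbcomm : ∀ a ∈ Hb, ∀ b ∈ Hb, a * b = b * a := by
    rintro _ ⟨a, ha, rfl⟩ _ ⟨b, hb, rfl⟩
    have := hcomm.is_comm.comm ⟨a, ha⟩ ⟨b, hb⟩
    have h3 : a * b = b * a := congrArg Subtype.val this
    rw [← map_mul, ← map_mul, h3]
  have hHbF : Hb ≤ F := by
    refine le_trans ?_ hCF
    intro a ha
    rw [mem_centralizer_iff]
    intro b hb
    exact hHbcomm b (hFHb hb) a ha
  have hEq : Hb = F := le_antisymm hHbF hFHb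
  have hHbn : Hb.Normal := hEq ▸ hFn
  have hsup : O ⊔ H' = Hb.comap π := by
    rw [hHb, Subgroup.comap_map_eq, hπ, QuotientGroup.ker_mk', sup_comm]
  have hsupn : (O ⊔ H').Normal := by
    rw [hsup]
    exact hHbn.comap π
  have hHbc : (Nat.card Hb).Coprime p := by
    refine Nat.Coprime.coprime_dvd_left ?_ hHc
    exact Subgroup.card_map_dvd H' π
  refine ⟨O, hOp, le_top, ?_, ?_, ?_, ?_⟩
  · rw [normalizer_eq_top]
  · rw [normalizer_eq_top]
  · intro Y _ hYp hHY y hy
    have hYb : IsPGroup p (Y.map π) := hYp.map π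
    have hdisj : Disjoint (Y.map π) Hb := by
      obtain ⟨j, hj⟩ := hYb.exists_card_eq
      apply Subgroup.disjoint_of_coprime_natCard
      rw [hj]
      exact (Nat.Coprime.pow_right j hHbc).symm
    have hcen : π y ∈ centralizer (F : Set (X ⧸ O)) := by
      rw [mem_centralizer_iff]
      intro b hb
      rw [← hEq] at hb
      obtain ⟨h, hh, rfl⟩ := hb
      have h1 : y * (h * y⁻¹ * h⁻¹) ∈ Y :=
        Y.mul_mem hy (((mem_normalizer_iff.1 (hHY hh)) y⁻¹).1 (Y.inv_mem hy))
      have h2 : π (y * (h * y⁻¹ * h⁻¹)) ∈ Hb := by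
        have h3 : π (y * (h * y⁻¹ * h⁻¹)) = (π y * π h * (π y)⁻¹) * (π h)⁻¹ := by
          simp [mul_assoc]
        rw [h3]
        exact Hb.mul_mem (hHbn.conj_mem _ (mem_map_of_mem π hh) _) (Hb.inv_mem (mem_map_of_mem π hh))
      have h4 : π (y * (h * y⁻¹ * h⁻¹)) = 1 := by
        have := (Subgroup.disjoint_def.1 hdisj) (mem_map_of_mem π h1) h2
        exact this
      have h5 : π y * π h * (π y)⁻¹ * (π h)⁻¹ = 1 := by
        rw [← h4]; simp [mul_assoc]
      have h6 : π y * π h = π h * π y := by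
        have := mul_inv_eq_one.1 h5
        exact mul_inv_eq_iff_eq_mul.1 this
      exact h6.symm
    have h7 : π y ∈ Hb := hEq ▸ hCF hcen
    have h8 : π y = 1 := (Subgroup.disjoint_def.1 hdisj) (mem_map_of_mem π hy) h7
    rwa [hπ, QuotientGroup.mk'_apply, QuotientGroup.eq_one_iff] at h8
  · rw [relIndex_top_right]
    have h9 : (O ⊔ H').index ∣ p ^ k := by
      rw [← hidx]
      exact Subgroup.index_dvd_of_le le_sup_right
    obtain ⟨j, -, hj⟩ := (Nat.dvd_prime_pow hp).1 h9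
    exact ⟨j, hj⟩

end Cfsg.Agent.Lib.Helper60.PA
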