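import Mathlib
import Cfsg.Prelude.Def_LocalEven
import Cfsg.Prelude.Def_PLocal
import Cfsg.Prelude.Def_EvenType
import Cfsg.Agent.Lib.Helper60.PA.Defs

set_option autoImplicit false

namespace Cfsg.Agent.Lib.Helper60.PA

open Subgroup
open scoped commutatorElement

universe u

theorem strr_map_subgroupOf {G : Type*} [Group G] {H L : Subgroup G} (h : H ≤ L) :
    (H.subgroupOf L).map L.subtype = H := by
  rw [Subgroup.subgroupOf_map_subtype, inf_eq_left.2 h]

theorem strr_le_normalizer_map {G : Type*} [Group G] {L : Subgroup G} (A : Subgroup ↥L)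
    (h : (⊤ : Subgroup ↥L) ≤ normalizer (A : Set ↥L)) :
    L ≤ normalizer ((A.map L.subtype : Subgroup G) : Set G) := by
  have h1 : (normalizer (A : Set ↥L)).map L.subtype ≤ normalizer ((A.map L.subtype : Subgroup G) : Set G) :=
    Subgroup.le_normalizer_map L.subtype
  intro l hl
  exact h1 ⟨⟨l, hl⟩, h (Subgroup.mem_top _), rfl⟩

theorem strR {p : ℕ} [Fact p.Prime] {G : Type u} [Group G] [Finite G] (hyp : Hyp p G)
    (habs : ∀ (X : Type u) [Group X] [Finite X] [Group.IsSolvable X], Hyp p X →
      ∀ H : Subgroup X, MaxPIn p H ⊤ → StrAt p H ⊤)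
    {H L : Subgroup G} (hL : Group.IsSolvable ↥L) (hH : MaxPIn p H L) : StrAt p H L := by
  obtain ⟨hHL, hHc, hmax⟩ := hH
  have hcard : ∀ A : Subgroup ↥L, Nat.card ↥(A.map L.subtype) = Nat.card ↥A := fun A =>
    Subgroup.card_map_of_injective L.subtype_injective
  have hH' : MaxPIn p (H.subgroupOf L) ⊤ := by
    refine ⟨le_top, ?_, ?_⟩
    · rw [← hcard, strr_map_subgroupOf hHL]; exact hHc
    · intro H'' h1 _ h3
      have h4 : H''.map L.subtype = H := by
        apply hmax
        · rw [← strr_map_subgroupOf hHL]; exact Subgroup.map_mono h1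
        · exact Subgroup.map_subtype_le _
        · rw [hcard]; exact h3
      rw [← h4]
      exact (Subgroup.comap_map_eq_self_of_injective L.subtype_injective H'').symm
  obtain ⟨O', hO1, -, hO3, hO4, hO5, k, hk⟩ := habs ↥L (hyp.subgroup L) (H.subgroupOf L) hH'
  have hsup : (O' ⊔ H.subgroupOf L).map L.subtype = O'.map L.subtype ⊔ H := by
    rw [Subgroup.map_sup, strr_map_subgroupOf hHL]
  refine ⟨O'.map L.subtype, hO1.map _, Subgroup.map_subtype_le _, strr_le_normalizer_map O' hO3, ?_, ?_,
    k, ?_⟩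
  · rw [← hsup]
    exact strr_le_normalizer_map _ hO4
  · intro X hXL hXp hHX
    have h1 : X.subgroupOf L ≤ O' := by
      apply hO5 _ le_top (hXp.comap_subtype)
      intro h hh
      have h2 : (h : G) ∈ normalizer (X : Set G) := hHX hh
      rw [Subgroup.mem_normalizer_iff] at h2 ⊢
      intro g
      exact h2 (g : G)
    rw [← strr_map_subgroupOf hXL]
    exact Subgroup.map_mono h1
  · rw [← hsup, ← hk, Subgroup.relIndex_top_right, Subgroup.relIndex, Subgroup.subgroupOf,
      Subgroup.comap_map_eq_self_of_injective L.subtype_injective]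

end Cfsg.Agent.Lib.Helper60.PA
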