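import Mathlib
import Cfsg.Agent.Lib.Helper60.PA.Defs

set_option autoImplicit false

namespace Cfsg.Agent.Lib.Helper60.PA

open Subgroup
open scoped commutatorElement

universe u

theorem ti_norm_grow {G : Type*} [Group G] {U T : Subgroup G}
    (hT : Group.IsNilpotent T) (hUT : U < T) : ∃ t ∈ T, t ∈ normalizer (U : Set G) ∧ t ∉ U := by
  have hlt : U.subgroupOf T < ⊤ := by
    rw [lt_top_iff_ne_top]
    intro htop
    exact hUT.ne (le_antisymm hUT.le (subgroupOf_eq_top.mp htop))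
  obtain ⟨n, hn1, hn2⟩ := SetLike.exists_of_lt
    ((Group.normalizerCondition_of_isNilpotent (G := T)) (U.subgroupOf T) hlt)
  refine ⟨n, n.2, ?_, fun h => hn2 (mem_subgroupOf.mpr h)⟩
  rw [mem_normalizer_iff]
  intro u
  constructor
  · intro hu
    have := (mem_normalizer_iff.mp hn1 ⟨u, hUT.le hu⟩).mp (mem_subgroupOf.mpr hu)
    simpa [mem_subgroupOf] using this
  · intro hu
    have huT : u ∈ T := by
      have h2 : u = (n : G)⁻¹ * ((n : G) * u * (n : G)⁻¹) * (n : G) := by group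
      rw [h2]
      exact T.mul_mem (T.mul_mem (T.inv_mem n.2) (hUT.le hu)) n.2
    have := (mem_normalizer_iff.mp hn1 ⟨u, huT⟩).mpr (by simpa [mem_subgroupOf] using hu)
    simpa [mem_subgroupOf] using this

theorem ti_norm_inf {G : Type*} [Group G] {A B : Subgroup G} {h : G}
    (ha : h ∈ normalizer (A : Set G)) (hb : h ∈ normalizer (B : Set G)) :
    h ∈ normalizer ((A ⊓ B : Subgroup G) : Set G) := by
  rw [mem_normalizer_iff] at ha hb ⊢
  intro x
  rw [mem_inf, mem_inf, ha x, hb x]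

theorem ti_exists_max {p : ℕ} {G : Type*} [Group G] [Finite G] {H T : Subgroup G} (hT : Inv p H T) :
    ∃ T', MaxInv p H T' ∧ T ≤ T' := by
  obtain ⟨b, hab, hb⟩ := (Set.toFinite {T : Subgroup G | Inv p H T}).exists_le_maximal hT
  exact ⟨b, ⟨hb.prop, fun T' hT' hle => le_antisymm (hb.le_of_ge hT' hle) hle⟩, hab⟩

theorem ti {p : ℕ} [Fact p.Prime] {G : Type u} [Group G] [Finite G] {H : Subgroup G}
    (hN : ∀ I : Subgroup G, IsPGroup p ↥I → I ≠ ⊥ → normalizer (I : Set G) ≠ ⊤)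
    (hstr : ∀ L : Subgroup G, L ≠ ⊤ → H ≤ L → StrAt p H L) :
    ∀ T₁ T₂ : Subgroup G, MaxInv p H T₁ → MaxInv p H T₂ → T₁ ≠ T₂ → T₁ ⊓ T₂ = ⊥ := by
  have key : ∀ n : ℕ, ∀ T₁ T₂ : Subgroup G, MaxInv p H T₁ → MaxInv p H T₂ → T₁ ≠ T₂ →
      Nat.card G - Nat.card ↥(T₁ ⊓ T₂) = n → T₁ ⊓ T₂ = ⊥ := by
    intro n
    induction n using Nat.strong_induction_on with
    | _ n ih =>
    intro T₁ T₂ h1 h2 hne hn
    by_contra hI
    set I := T₁ ⊓ T₂ with hIdef
    have hIp : IsPGroup p I := h1.1.1.to_le inf_le_left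
    have hL := hN I hIp hI
    have hHL : H ≤ normalizer (I : Set G) := fun h hh => ti_norm_inf (h1.1.2 hh) (h2.1.2 hh)
    obtain ⟨O, hOp, hOL, hLO, -, hXO, -⟩ := hstr _ hL hHL
    obtain ⟨T₃, h3, hOT₃⟩ := ti_exists_max (p := p) (H := H) (T := O) ⟨hOp, hHL.trans hLO⟩
    have step : ∀ T : Subgroup G, MaxInv p H T → I ≤ T → I ≠ T → T₃ = T := by
      intro T hT hIT hIne
      by_contra hne3
      obtain ⟨t, htT, htN, htI⟩ := ti_norm_grow (hT.1.1.isNilpotent) (lt_of_le_of_ne hIT hIne)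
      have hX : T ⊓ normalizer (I : Set G) ≤ O := by
        apply hXO _ inf_le_right (hT.1.1.to_le inf_le_left)
        intro h hh
        exact ti_norm_inf (hT.1.2 hh) (le_normalizer (hHL hh))
      have hlt : I < T₃ ⊓ T := by
        refine lt_of_le_of_ne (le_inf ?_ hIT) ?_
        · exact (le_inf hIT le_normalizer).trans (hX.trans hOT₃)
        · intro heq
          apply htI
          rw [heq]
          exact mem_inf.2 ⟨hOT₃ (hX (mem_inf.2 ⟨htT, htN⟩)), htT⟩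
      have hcard : Nat.card ↥I < Nat.card ↥(T₃ ⊓ T) := by
        by_contra hcon
        exact hlt.ne (Subgroup.eq_of_le_of_card_ge hlt.le (not_lt.1 hcon))
      have hle : Nat.card ↥(T₃ ⊓ T) ≤ Nat.card G := Subgroup.card_le_card_group _
      have := ih (Nat.card G - Nat.card ↥(T₃ ⊓ T)) (by omega) T₃ T h3 hT hne3 rfl
      exact hI (eq_bot_iff.2 (this ▸ hlt.le))
    have e1 : T₃ = T₁ := step T₁ h1 inf_le_left (fun h => hne (h1.2 T₂ h2.1 (h ▸ inf_le_right)).symm)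
    have e2 : T₃ = T₂ := step T₂ h2 inf_le_right (fun h => hne (h2.2 T₁ h1.1 (h ▸ inf_le_left)))
    exact hne (e1.symm.trans e2)
  intro T₁ T₂ h1 h2 hne
  exact key _ T₁ T₂ h1 h2 hne rfl

end Cfsg.Agent.Lib.Helper60.PA
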