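import Mathlib
import Cfsg.Agent.Lib.Helper60.PA.Defs

set_option autoImplicit false

namespace Cfsg.Agent.Lib.Helper60.PA

open Subgroup
open scoped commutatorElement

universe u

theorem uniq_exists_max {p : ℕ} {G : Type*} [Group G] [Finite G] {H T₀ : Subgroup G}
    (h0 : Inv p H T₀) : ∃ T : Subgroup G, MaxInv p H T ∧ T₀ ≤ T := by
  obtain ⟨m, hle, hm⟩ := (Set.toFinite {T : Subgroup G | Inv p H T}).exists_le_maximal h0
  exact ⟨m, ⟨hm.1, fun T' hT' hle' => le_antisymm (hm.2 hT' hle') hle'⟩, hle⟩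

theorem uniq_normalizer_inf {G : Type*} [Group G] {H A B : Subgroup G}
    (hA : H ≤ normalizer (A : Set G)) (hB : H ≤ normalizer (B : Set G)) :
    H ≤ normalizer ((A ⊓ B : Subgroup G) : Set G) := by
  intro h hh
  rw [Subgroup.mem_normalizer_iff]
  intro x
  have h1 := (Subgroup.mem_normalizer_iff.1 (hA hh)) x
  have h2 := (Subgroup.mem_normalizer_iff.1 (hB hh)) x
  constructor
  · rintro ⟨ha, hb⟩
    exact ⟨h1.1 ha, h2.1 hb⟩
  · rintro ⟨ha, hb⟩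
    exact ⟨h1.2 ha, h2.2 hb⟩

theorem uniq {p : ℕ} [Fact p.Prime] {G : Type u} [Group G] [Finite G] {H E : Subgroup G}
    (hC : ∀ e : G, e ≠ 1 → centralizer ({e} : Set G) ≠ ⊤) (hHc : IsMulCommutative ↥H) (hEH : E ≤ H)
    (hstr : ∀ L : Subgroup G, L ≠ ⊤ → H ≤ L → StrAt p H L)
    (hti : ∀ T₁ T₂ : Subgroup G, MaxInv p H T₁ → MaxInv p H T₂ → T₁ ≠ T₂ → T₁ ⊓ T₂ = ⊥)
    (he : ∀ T₁ T₂ : Subgroup G, IsPGroup p ↥T₁ → IsPGroup p ↥T₂ → E ≤ normalizer (T₁ : Set G) →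
      E ≤ normalizer (T₂ : Set G) → T₁ ≠ ⊥ → T₂ ≠ ⊥ →
      ∃ e ∈ E, e ≠ 1 ∧ T₁ ⊓ centralizer ({e} : Set G) ≠ ⊥ ∧ T₂ ⊓ centralizer ({e} : Set G) ≠ ⊥) :
    ∃ T : Subgroup G, Inv p H T ∧ ∀ T' : Subgroup G, Inv p H T' → T' ≤ T := by
  have hbot : Inv p H (⊥ : Subgroup G) := by
    refine ⟨IsPGroup.of_bot, ?_⟩
    intro h _
    rw [Subgroup.mem_normalizer_iff]
    intro x
    simp [Subgroup.mem_bot]
  obtain ⟨T, hT, _⟩ := uniq_exists_max hbot
  refine ⟨T, hT.1, ?_⟩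
  intro T' hT'
  by_contra hnle
  obtain ⟨T2, hT2, hle2⟩ := uniq_exists_max hT'
  have hne : T ≠ T2 := by
    rintro rfl
    exact hnle hle2
  have hT2ne : T2 ≠ ⊥ := by
    rintro rfl
    apply hnle
    rw [le_bot_iff.1 hle2]
    exact bot_le
  have hTne : T ≠ ⊥ := by
    rintro rfl
    exact hT2ne (hT.2 T2 hT2.1 bot_le)
  obtain ⟨e, heE, he1, hX1, hX2⟩ := he T T2 hT.1.1 hT2.1.1 (hEH.trans hT.1.2)
    (hEH.trans hT2.1.2) hTne hT2ne
  have hHL : H ≤ centralizer ({e} : Set G) := by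
    intro x hx
    rw [Subgroup.mem_centralizer_iff]
    intro y hy
    rw [Set.mem_singleton_iff] at hy
    subst hy
    have := hHc.is_comm.comm ⟨y, hEH heE⟩ ⟨x, hx⟩
    exact congrArg Subtype.val this
  obtain ⟨O, hOp, hOL, hLO, _, hin, _⟩ := hstr _ (hC e he1) hHL
  have hHN : H ≤ normalizer ((centralizer ({e} : Set G) : Subgroup G) : Set G) :=
    hHL.trans Subgroup.le_normalizer
  have h1 : T ⊓ centralizer ({e} : Set G) ≤ O :=
    hin _ inf_le_right (hT.1.1.to_le inf_le_left) (uniq_normalizer_inf hT.1.2 hHN)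
  have h2 : T2 ⊓ centralizer ({e} : Set G) ≤ O :=
    hin _ inf_le_right (hT2.1.1.to_le inf_le_left) (uniq_normalizer_inf hT2.1.2 hHN)
  obtain ⟨T3, hT3, hle3⟩ := uniq_exists_max (show Inv p H O from ⟨hOp, hHL.trans hLO⟩)
  have e1 : T3 = T := by
    by_contra hne3
    have := hti T3 T hT3 hT hne3
    apply hX1
    rw [eq_bot_iff, ← this]
    exact le_inf (h1.trans hle3) inf_le_left
  have e2 : T3 = T2 := by
    by_contra hne3
    have := hti T3 T2 hT3 hT2 hne3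
    apply hX2
    rw [eq_bot_iff, ← this]
    exact le_inf (h2.trans hle3) inf_le_left
  exact hne (e1.symm.trans e2)

end Cfsg.Agent.Lib.Helper60.PA
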